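import Cfsg.Agent.Lib.BR.K1
import Cfsg.Agent.Lib.BSW.SL2Sub

/-!
# The case where the non-exceptional characters have degrees `1`, `n` and `p - 1`
-/

set_option autoImplicit false

namespace Cfsg.Agent.BR

open Subgroup Cfsg.Agent.OO
open scoped ComplexConjugate Pointwise MatrixGroups

universe u

variable {G : Type u} [Group G] [Finite G] {p : ℕ} [hp : Fact p.Prime] {x y : G} {K H : Subgroup G}

omit hp in
theorem NS.of_sing (s : NS G) (h2 : 2 ∣ Nat.card G) (h : ∀ g : G, 2 ∣ orderOf g → g * g = 1) {q : ℕ}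
    (hq : Nat.card G = q * (q + 1) * (q + 2)) :
    ∃ m, 2 ≤ m ∧ q + 1 = 2 ^ m ∧ Nonempty (G ≃* PSL(2, GaloisField 2 m)) := by
  obtain ⟨z, hz⟩ := exists_prime_orderOf_dvd_card' 2 h2
  have key : ∀ z : G, z ≠ 1 → z * z = 1 → ∀ w ∈ 𝐂[z], w * w = 1 := fun z z1 z2 w hw => by
    by_cases e : 2 ∣ orderOf w
    · exact h w e
    have hc : Commute w z := mem_centralizer_singleton_iff.1 hw
    have h3 : orderOf z = 2 := orderOf_eq_prime (by rwa [sq]) z1
    have h4 := h (w * z) (by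
      rw [hc.orderOf_mul_eq_mul_orderOf_of_coprime (by
        rw [h3]; exact ((Nat.Prime.coprime_iff_not_dvd Nat.prime_two).2 e).symm), h3]
      exact dvd_mul_left _ _)
    rwa [hc.symm.mul_mul_mul_comm, z2, mul_one] at h4
  have z1 : z ≠ 1 := fun e => by simp [e] at hz
  have z2 : z * z = 1 := by rw [← sq, ← hz, pow_orderOf_eq_one]
  rcases BSW.dichotomy (BSW.comm_of_mul_self (key z z1 z2)) (fun a ha a1 g hg => by
    have := (BSW.comm_of_mul_self (key a a1 (key z z1 z2 a ha))).1.1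
      ⟨g, mem_centralizer_singleton_iff.2 hg⟩ ⟨z, mem_centralizer_singleton_iff.2
        (mem_centralizer_singleton_iff.1 ha).symm⟩
    exact mem_centralizer_singleton_iff.2 (congrArg Subtype.val this))
    (mem_centralizer_singleton_iff.2 rfl) z1 z2 with ⟨N, h1, h3, h4⟩ | ⟨m, h1, -, -, h3, h4⟩
  · obtain rfl := (s.simple.eq_bot_or_eq_top_of_normal N h1).resolve_left h3
    exact absurd ⟨⟨fun a b => congrArg Subtype.val (h4.1.1 ⟨a, trivial⟩ ⟨b, trivial⟩)⟩⟩ s.nc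
  refine ⟨m, h1, ?_, h4⟩
  obtain ⟨k, hk⟩ : ∃ k, 2 ^ m = k + 1 := ⟨2 ^ m - 1, by have := Nat.two_pow_pos m; omega⟩
  rw [hk, hq, Nat.add_sub_cancel, show 1 + (k + 1) = k + 2 by ring] at h3
  rw [hk]
  rcases lt_trichotomy q k with e | e | e
  · exact absurd h3 (ne_of_lt (by gcongr))
  · rw [e]
  · exact absurd h3 (ne_of_gt (by gcongr))

namespace Dat.Brauer
variable {d : Dat p x y K H} {I : Finset (G → ℂ)} {δ : (G → ℂ) → ℤ} {ξ : d.J → G → ℂ} {δ0 : ℤ}
  (b : d.Brauer I δ ξ δ0) (s : NS G) {r : ℕ} (hn : (𝐍(zpowers x)).index = 1 + r * p) (hK : K = ⊥)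
  (e0 : δ0 = 1) (h0 : Nat.card d.J * dg (ξ 1) = 1 + r * p) {f2 f4 : ℕ} {S1 S3 : Finset (G → ℂ)}
  (c : Cen I δ (1 + r * p) f2 (p - 1) f4 S1 ∅ S3 ∅)
include b s hn hK e0 h0 c

theorem A_ti : NormedTI (sharp H) ⊤ 𝐍(H) ∧ ♯𝐍(H) = Nat.card d.E * (r + 1) := by
  have h1 : ∀ h ∈ H, h ≠ 1 → ♯𝐍(zpowers h) = Nat.card d.E * (r + 1) := fun h hh h1 => by
    have h2 : ¬ p ∣ orderOf h := fun e => d.cop (e.trans (orderOf_dvd_natCard _ hh))
    have h3 : rho x h = r + 1 := by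
      by_cases e : ξ 1 h = 0
      · by_contra e'
        have := b.cen_reg c 1 h2
        rw [Finset.sum_eq_zero (s := S1) fun θ hθ => by_contra fun e => e' (b.trickI hK hn
          (c.h1 θ hθ).1 (c.h1 θ hθ).2.1 (c.h1 θ hθ).2.2 h2 h1 e), Finset.sum_eq_zero (s := S3)
          fun θ hθ => b.γ_zero (c.h3 θ hθ).1 (c.h3 θ hθ).2.1 (c.h3 θ hθ).2.2 (d.norm hh)
            (d.not_C hK hh h1), e] at this
        simp at this
      · exact b.trickξ hK hn e0 h0 h2 h1 e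
    have h4 := d.rho_eq hK hh h1
    rw [h3] at h4
    exact_mod_cast h4.symm
  have y1 : y ≠ 1 := fun e => by
    have := (d.orderOf_y hK).symm.trans (orderOf_eq_one_iff.2 e)
    have := b.two_le_e s
    omega
  have hH := d.H_eq hK
  refine ⟨⟨⟨y, d.yH, y1⟩, le_top, fun g hg a ha => ⟨(mem_normalizer_iff.1 hg a).1 ha.1,
    fun e => ha.2 (conj_eq_one_iff.1 e)⟩, fun g _ a ha h => ?_⟩, hH ▸ h1 y d.yH y1⟩
  have h2 : 𝐍(zpowers y) = 𝐍(zpowers a) := eq_of_le_of_card_ge (fun g hg => (mem_N_iff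
    (hH ▸ ha.1)).1 ((mem_normalizer_iff.1 hg a).1 (hH ▸ ha.1)))
    ((h1 a ha.1 ha.2).trans (h1 y d.yH y1).symm).le
  rw [hH, h2]
  exact (mem_N_iff (hH ▸ ha.1)).1 (hH ▸ h.1)

theorem A_num : Even (Nat.card d.J) ∧ r + 1 = Nat.card d.J ∧ dg (ξ 1) + Nat.card d.E = p ∧
    (dg (ξ 1)).Coprime (p - 1) ∧ S1.card * Nat.card d.J + 2 = Nat.card d.E := by
  have h1 := b.cen_deg c 1
  have h2 := b.cen_card c
  have h3 := d.e_mul_t
  have hp1 := hp.out.one_le
  simp only [Finset.card_empty, Nat.cast_zero, zero_mul, add_zero, sub_zero, e0, one_mul] at h1 h2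
  have h4 : Even (Nat.card d.J) := by
    obtain ⟨θ, hθ⟩ : S3.Nonempty := Finset.card_pos.1 (Nat.pos_of_ne_zero fun e => by
      rw [e] at h1; simp only [Nat.cast_zero, zero_mul, sub_zero] at h1; exact absurd h1 (by positivity))
    exact b.det_I s (c.h3 θ hθ).1 (c.h3 θ hθ).2.1 (c.h3 θ hθ).2.2
  obtain ⟨m, hm⟩ : p ∣ dg (ξ 1) + Nat.card d.E := by
    have := (b.degξ 1 (dg_eq (b.irrξ 1).isChar)).2.1
    rw [e0, mul_one] at this; exact_mod_cast this
  have h5 : m * Nat.card d.J = r + 1 := by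
    apply Nat.eq_of_mul_eq_mul_left hp.out.pos
    rw [← mul_assoc, ← hm, add_mul, mul_comm (dg _), h0, d.e_mul_t, mul_add, mul_comm p]; omega
  have h6 : m * (S1.card * Nat.card d.J + 1) + 1 = Nat.card d.E := by
    zify [hp1] at h1 h2 hm h5 ⊢
    apply mul_left_cancel₀ (by omega : (p : ℤ) ≠ 0)
    linear_combination h1 - hm - (p - 1 : ℤ) * h2 + p * S1.card * h5
  have h7 : (p - 1) * m ∣ (p - 1) * (p * dg (ξ 1)) := by
    have := card_subgroup_dvd_card 𝐍(H)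
    rw [(b.A_ti s hn hK e0 h0 c).2, d.cardG' hK, hn, ← h0, ← h5] at this
    convert this using 1 <;> rw [← h3] <;> ring
  have h8 : m ∣ dg (ξ 1) := by
    refine Nat.Coprime.dvd_of_dvd_mul_left ((Nat.coprime_of_lt_prime ?_ ?_ hp.out).symm)
      (Nat.dvd_of_mul_dvd_mul_left (by have := hp.out.two_le; omega) h7)
    · rintro rfl; omega
    · have := Nat.le_mul_of_pos_right m (Nat.add_one_pos (S1.card * Nat.card d.J))
      have := hp.out.two_le
      have := Nat.le_mul_of_pos_right (Nat.card d.E) (Nat.card_pos (α := d.J))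
      omega
  have h9 : m ∣ Nat.card d.E := (Nat.dvd_add_right h8).1 (hm ▸ dvd_mul_left _ _)
  obtain rfl : m = 1 := Nat.dvd_one.1 ((Nat.dvd_add_right (dvd_mul_right _ _)).1 (h6 ▸ h9))
  refine ⟨h4, by omega, by omega, Nat.isCoprime_iff_coprime.1
    ⟨-(S1.card * Nat.card d.J + 1), S3.card, ?_⟩, by omega⟩
  zify at h0
  push_cast at h1 ⊢
  linear_combination -h1 - S1.card * h0

theorem A_conj {g : G} {l : ℕ} (hl : l.Prime) (h1 : l ∣ p - 1) (hg : l ∣ orderOf g) :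
    g ∈ classSupp (sharp H) ⊤ := by
  classical
  obtain ⟨hT, hN⟩ := b.A_ti s hn hK e0 h0 c
  obtain ⟨-, n1, n2, n3, n4⟩ := b.A_num s hn hK e0 h0 c
  have h3 := d.e_mul_t
  have hp2 := hp.out.two_le
  have hG := d.cardG' hK
  rw [hn, ← h0] at hG
  have i1 : ∀ l : ℕ, l.Prime → l ∣ p - 1 → ¬ l ∣ p := fun l hl h h' => by
    have := Nat.le_of_dvd (by omega) h
    have := (Nat.prime_dvd_prime_iff_eq hl hp.out).1 h'
    omega
  have hA : ∀ (g : G) (l : ℕ), l.Prime → l ∣ p - 1 → l ∣ orderOf g →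
      (¬ p ∣ orderOf g ∧ g ≠ 1) ∧ ∑ θ ∈ S3, θ g = 0 := fun g l hl h hg =>
    ⟨⟨fun e => i1 l hl h (d.ord_sing hK e ▸ hg), fun e => hl.not_dvd_one (by simpa [e] using hg)⟩,
      Finset.sum_eq_zero fun θ hθ => dz (b.irrI θ (c.h3 θ hθ).1) (m := p * dg (ξ 1))
        (by rw [(c.h3 θ hθ).2.2, hG, ← h3]; ring) hl (fun e => (hl.dvd_mul.1 e).elim (i1 l hl h)
          fun e => hl.one_lt.ne' (Nat.eq_one_of_dvd_coprimes n3 e h)) hg⟩
  have hB : ∀ g : G, ¬ p ∣ orderOf g → g ≠ 1 → ∑ θ ∈ S3, θ g = 0 ∨ ∑ θ ∈ S3, θ g = 1 := by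
    intro g hg g1
    obtain ⟨l, hl, hl'⟩ := Nat.exists_prime_and_dvd (fun e => g1 (orderOf_eq_one_iff.1 e))
    by_cases e : l ∣ p - 1
    · exact .inl (hA g l hl e hl').2
    have i2 : ¬ l ∣ p := fun e => hg ((Nat.prime_dvd_prime_iff_eq hl hp.out).1 e ▸ hl')
    have := b.cen_reg c 1 hg
    rw [Finset.sum_eq_zero (s := S1) fun θ hθ => dz (b.irrI θ (c.h1 θ hθ).1)
      (m := p * Nat.card d.E) (by rw [(c.h1 θ hθ).2.2, hG, ← h0]; ring) hl
      (fun e' => (hl.dvd_mul.1 e').elim i2 fun e' => e (h3 ▸ e'.mul_right _)) hl',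
      dz (b.irrξ 1) (m := p * (p - 1)) (by rw [hG, ← h3]; ring) hl
      (fun e' => (hl.dvd_mul.1 e').elim i2 e) hl'] at this
    right; simp only [Finset.sum_empty] at this; linear_combination -this
  let L := (elts {g : G | ¬ p ∣ orderOf g ∧ g ≠ 1}).filter fun g => ∑ θ ∈ S3, θ g = 0
  have hU : elts (classSupp (sharp H) ⊤) ⊆ L := fun g hg => by
    obtain ⟨a, ha, u, -, rfl⟩ := mem_classSupp.1 (mem_elts.1 hg)
    obtain ⟨l, hl, hl'⟩ := Nat.exists_prime_and_dvd (fun e => ha.2 (orderOf_eq_one_iff.1 e))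
    have := hA (u * a * u⁻¹) l hl (hl'.trans ((orderOf_dvd_natCard _ ha.1).trans
      (d.cardH' hK ▸ Dvd.intro _ h3))) (by rwa [orderOf_conj])
    exact Finset.mem_filter.2 ⟨mem_elts.2 this.1, this.2⟩
  have hc : cf1 ⊤ - ∑ θ ∈ S3, θ ∈ CF (⊤ : Subgroup G) :=
    sub_mem (cf1_mem_CF _) (sum_mem fun θ hθ => (b.irrI θ (c.h3 θ hθ).1).mem_CF)
  have h4 := d.sum_split hK hc
  simp only [Pi.sub_apply, cf1E (mem_top _), Finset.sum_apply] at h4
  rw [Finset.sum_sub_distrib, Finset.sum_comm, Finset.sum_eq_zero (s := S3) fun θ hθ =>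
    (b.irrI θ (c.h3 θ hθ).1).sum_eq_zero fun e => by
      have := (c.h3 θ hθ).2.1; rw [e, b.δ_one] at this; omega,
    Finset.sum_congr (s₁ := S3) rfl fun θ hθ => by
      rw [dg_eq (b.irrI θ (c.h3 θ hθ).1).isChar, (c.h3 θ hθ).2.2],
    Finset.sum_congr (s₁ := Finset.univ) rfl fun a _ => by
      rw [Finset.sum_congr rfl fun θ hθ => by
        rw [b.valI' (c.h3 θ hθ).1 a.ne_zero, (c.h3 θ hθ).2.1]],
    ← Finset.sum_filter_add_sum_filter_not (elts {g : G | ¬ p ∣ orderOf g ∧ g ≠ 1})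
      fun g => ∑ θ ∈ S3, θ g = 0,
    Finset.sum_congr (s₁ := L) rfl fun g hg => by rw [(Finset.mem_filter.1 hg).2],
    Finset.sum_eq_zero (s := Finset.filter (fun g => ¬ ∑ θ ∈ S3, θ g = 0) _) fun g hg => by
      have := Finset.mem_filter.1 hg
      rw [(hB g (mem_elts.1 this.1).1 (mem_elts.1 this.1).2).resolve_left this.2, sub_self],
    sum_elts_const, card_top, hG, hn, ← h0] at h4
  simp only [Finset.sum_const, Finset.card_univ, ZMod.card_units, nsmul_eq_mul] at h4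
  have h5 : (p : ℤ) * (Nat.card d.E * (Nat.card d.J * dg (ξ 1))) = 1 - S3.card * (p - 1 : ℕ) +
      Nat.card d.J * dg (ξ 1) * ((p - 1 : ℕ) * (1 + S3.card)) + L.card := by
    have : (p : ℂ) * (Nat.card d.E * (Nat.card d.J * dg (ξ 1))) = 1 - S3.card * (p - 1 : ℕ) +
      Nat.card d.J * dg (ξ 1) * ((p - 1 : ℕ) * (1 + S3.card)) + L.card := by
      push_cast at h4; linear_combination h4
    exact_mod_cast this
  have h6 : (𝐍(H)).index = p * dg (ξ 1) := by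
    apply Nat.eq_of_mul_eq_mul_left (Nat.card_pos (α := 𝐍(H)))
    rw [card_mul_index, hG, hN, n1]; ring
  have h7 : (elts (classSupp (sharp H) ⊤)).card = (Nat.card d.E - 1) * (p * dg (ξ 1)) := by
    rw [card_elts_set, hT.ncard_classSupp, relIndex_top_right, h6, ← d.cardH' hK, sharp,
      Set.ncard_sdiff_singleton_of_mem (one_mem H)]; rfl
  have h2 := b.cen_card c
  simp only [Finset.card_empty, add_zero] at h2
  have h8 : L.card = (Nat.card d.E - 1) * (p * dg (ξ 1)) := by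
    have he : 1 ≤ Nat.card d.E := by omega
    zify [he, hp.out.one_le] at h2 h3 h5 n2 n4 ⊢
    generalize (Nat.card d.E : ℤ) = e at *
    generalize (Nat.card d.J : ℤ) = t at *
    rw [show (S3.card : ℤ) = e - 1 - S1.card by omega] at h5
    rw [show (dg (ξ 1) : ℤ) = p - e by omega, show (p : ℤ) = e * t + 1 by omega] at h5 ⊢
    linear_combination -h5 - e * (1 - t * (e * t + 1 - e)) * n4
  have := hA g l hl h1 hg
  exact mem_elts.1 (Finset.eq_of_subset_of_card_le hU (by omega) ▸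
    (Finset.mem_filter.2 ⟨mem_elts.2 this.1, this.2⟩ : g ∈ L))

theorem caseA : (r = 1 ∧ Nat.card d.J = 2 ∧ ∃ w, w ∉ H ∧ w * w = 1 ∧ w * y * w = y⁻¹) ∨
    (2 * (1 + r * p) = (p - 1) * (p - 2) ∧
      ∃ m, 2 ≤ m ∧ p = 2 ^ m + 1 ∧ Nonempty (G ≃* PSL(2, GaloisField 2 m))) := by
  obtain ⟨hT, hN⟩ := b.A_ti s hn hK e0 h0 c
  obtain ⟨n0, n1, n2, -, -⟩ := b.A_num s hn hK e0 h0 c
  have h3 := d.e_mul_t
  have hp2 := hp.out.two_le
  have hG := d.cardG' hK
  have hH := d.H_eq hK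
  rw [hn, ← h0] at hG
  rw [n1, h3] at hN
  have h1 : 2 ∣ p - 1 := h3 ▸ n0.two_dvd.mul_left _
  have h2 : 2 ∣ Nat.card G := h1.trans (hN ▸ card_subgroup_dvd_card _)
  obtain ⟨z, hz, z1, z2⟩ : ∃ z ∈ H, z ≠ 1 ∧ z ^ 2 = 1 := by
    obtain ⟨z, hz⟩ := exists_prime_orderOf_dvd_card' 2 h2
    obtain ⟨a, ha, u, -, rfl⟩ := mem_classSupp.1
      (b.A_conj s hn hK e0 h0 c Nat.prime_two h1 hz.symm.dvd)
    rw [orderOf_conj] at hz
    exact ⟨a, ha.1, ha.2, hz ▸ pow_orderOf_eq_one a⟩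
  have h4 : ∀ w ∈ 𝐍(H), w ∉ H → ∃ a ∈ sharp H, ∃ u, w = u * a * u⁻¹ := fun w hw hw' => by
    obtain ⟨l, hl, hl'⟩ := Nat.exists_prime_and_dvd
      (fun e : orderOf w = 1 => hw' (orderOf_eq_one_iff.1 e ▸ one_mem H))
    obtain ⟨a, ha, u, -, e⟩ := mem_classSupp.1 (b.A_conj s hn hK e0 h0 c hl
      (hl'.trans (hN ▸ orderOf_dvd_natCard _ hw)) hl')
    exact ⟨a, ha, u, e⟩
  have h5 : ∀ w ∈ 𝐍(H), w ∉ H → w * w = 1 := fun w hw hw' => by
    have i1 : w * z * w⁻¹ = z := by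
      have := (mem_normalizer_iff.1 ((mem_N_iff (hH ▸ hz)).1
        (hH ▸ (mem_normalizer_iff.1 hw z).1 hz)) z).1 (mem_zpowers z)
      classical
      rw [mem_zpowers_iff_mem_range_orderOf, orderOf_eq_prime z2 z1, Finset.mem_image] at this
      obtain ⟨i, i1, i2⟩ := this
      rw [Finset.mem_range] at i1
      interval_cases i
      · exact absurd (conj_eq_one_iff.1 (i2.symm.trans (pow_zero z))) z1
      · exact i2.symm.trans (pow_one z)
    have i2 : Commute w z := mul_inv_eq_iff_eq_mul.1 i1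
    obtain ⟨a, ha, u, e⟩ := h4 w hw hw'
    obtain ⟨a', ha', v, e'⟩ := h4 (w * z) (mul_mem hw (le_normalizer hz))
      (by rwa [mul_mem_cancel_right hz])
    by_contra i3
    have i4 : (v⁻¹ * u) * (a * a) * (v⁻¹ * u)⁻¹ = a' * a' := by
      have : w * z * (w * z) = w * w := by rw [i2.symm.mul_mul_mul_comm, ← sq z, z2, mul_one]
      rw [e', e] at this
      apply mul_left_cancel (a := v); apply mul_right_cancel (b := v⁻¹)
      simpa [mul_assoc] using this.symm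
    have i5 : a * a ≠ 1 := fun h => i3 (by rw [e]; simp [mul_assoc, ← mul_assoc a, h])
    have i6 := hT.mem_of_conj _ (mem_top (v⁻¹ * u)) _ ⟨mul_mem ha.1 ha.1, i5⟩
      ⟨i4 ▸ mul_mem ha'.1 ha'.1, fun h => i5 (conj_eq_one_iff.1 h)⟩
    have i7 : v⁻¹ * w * v⁻¹⁻¹ ∈ H := by
      have := (mem_normalizer_iff.1 i6 a).1 ha.1
      rw [e]; simpa [mul_assoc] using this
    have i8 : v⁻¹ * z * v⁻¹⁻¹ ∈ H := by
      have := mul_mem (inv_mem i7) ha'.1
      rw [show a' = v⁻¹ * (w * z) * v by rw [e']; group] at this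
      simpa [mul_assoc] using this
    have i9 := hT.mem_of_conj _ (mem_top _) _ ⟨hz, z1⟩ ⟨i8, fun h => z1 (conj_eq_one_iff.1 h)⟩
    exact hw' ((mem_normalizer_iff.1 i9 w).2 i7)
  have h6 : ∀ w ∈ 𝐍(H), w ∉ H → w * y * w = y⁻¹ := fun w hw hw' => by
    rw [eq_inv_iff_mul_eq_one, mul_assoc]
    exact h5 _ (mul_mem hw (le_normalizer d.yH)) (by rwa [mul_mem_cancel_right d.yH])
  have h7 : H.relIndex 𝐍(H) = Nat.card d.J := by
    have := Core.card_mul_relIndex_of_le (le_normalizer (H := H))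
    rw [hN, ← h3, d.cardH' hK] at this
    exact Nat.eq_of_mul_eq_mul_left Nat.card_pos this
  obtain ⟨w, hw, hw'⟩ : ∃ w ∈ 𝐍(H), w ∉ H := SetLike.not_le_iff_exists.1 fun h => by
    rw [← h7, relIndex_eq_one.2 h] at n0; exact Nat.not_even_one n0
  by_cases ht : Nat.card d.J = 2
  · exact .inl ⟨by omega, ht, w, hw', h5 w hw hw', h6 w hw hw'⟩
  have h8 : y ^ 2 = 1 := by
    by_contra h8
    refine ht (h7 ▸ index_eq_two_iff.2 ⟨⟨w, hw⟩, fun ⟨v, hv⟩ => ?_⟩)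
    simp only [mem_subgroupOf, coe_mul]
    by_cases e : v ∈ H
    · exact .inr ⟨e, by rwa [mul_mem_cancel_left e]⟩
    · refine .inl ⟨by_contra fun e' => h8 ?_, e⟩
      have i1 := h6 _ (mul_mem hv hw) e'
      have i2 : v * w = w * v := by
        rw [← inv_eq_of_mul_eq_one_right (h5 _ (mul_mem hv hw) e'), mul_inv_rev,
          inv_eq_of_mul_eq_one_right (h5 v hv e), inv_eq_of_mul_eq_one_right (h5 w hw hw')]
      nth_rw 2 [i2] at i1
      rw [show v * w * y * (w * v) = v * (w * y * w) * v by group, h6 w hw hw',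
        ← inv_inj, mul_inv_rev, mul_inv_rev, inv_inv,
        inv_eq_of_mul_eq_one_right (h5 v hv e), ← mul_assoc, h6 v hv e] at i1
      rw [sq, ← eq_inv_iff_mul_eq_one, i1]
  have h9 : Nat.card d.E = 2 := by
    have := Nat.le_of_dvd two_pos (d.orderOf_y hK ▸ orderOf_dvd_of_pow_eq_one h8)
    have := b.two_le_e s
    omega
  rw [h9] at h3 n2 hG
  obtain ⟨m, i1, i2, i3⟩ := s.of_sing h2 (q := dg (ξ 1)) (fun g hg => by
    obtain ⟨a, ha, u, -, rfl⟩ := mem_classSupp.1 (b.A_conj s hn hK e0 h0 c Nat.prime_two h1 hg)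
    have : a ^ 2 = 1 := orderOf_dvd_iff_pow_eq_one.1
      (h9 ▸ d.cardH' hK ▸ orderOf_dvd_natCard _ ha.1)
    rw [← sq, _root_.conj_pow, this]; simp)
    (by rw [hG, ← mul_assoc 2, h3, show p - 1 = dg (ξ 1) + 1 by omega, n2]; ring)
  exact .inr ⟨by rw [← h0, ← mul_assoc, h3, show p - 2 = dg (ξ 1) by omega], m, i1, by omega, i3⟩

end Dat.Brauer
end Cfsg.Agent.BR
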