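import Cfsg.Agent.Lib.BR.K1
import Cfsg.Agent.Lib.GW.Char1

/-!
# The case `p = a ^ 2 + a + 1`
-/

set_option autoImplicit false

namespace Cfsg.Agent.BR

open Subgroup Cfsg.Agent.OO
open scoped ComplexConjugate Pointwise

universe u

variable {G : Type u} [Group G] [Finite G] {p : ℕ} [hp : Fact p.Prime] {x y : G} {K H : Subgroup G}

omit hp [Finite G] in
theorem ti_single (x : G) : NormedTI {x} ⊤ 𝐂[x] :=
  ⟨⟨x, rfl⟩, le_top, fun g hg a ha => by
    rw [ha, mem_centralizer_singleton_iff.1 hg]; simp, fun g _ a ha h => by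
      rw [ha] at h; exact mem_centralizer_singleton_iff.2 (mul_inv_eq_iff_eq_mul.1 h)⟩

omit hp in
theorem sum_conj (g : G) (F : G → ℂ) : ∑ i ∈ elts ((⊤ : Subgroup G) : Set G), F (i * g * i⁻¹) =
    ♯𝐂[g] * ∑ a ∈ elts (classSupp {g} ⊤), F a := by
  classical
  rw [← Finset.sum_fiberwise_of_maps_to (t := elts (classSupp {g} ⊤)) (g := fun i => i * g * i⁻¹)
    fun i _ => mem_elts.2 (mem_classSupp.2 ⟨g, rfl, i, mem_top i, rfl⟩), Finset.mul_sum]
  refine Finset.sum_congr rfl fun a ha => ?_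
  obtain ⟨_, rfl, u, -, rfl⟩ := mem_classSupp.1 (mem_elts.1 ha)
  rw [Finset.sum_congr rfl fun i hi => by rw [(Finset.mem_filter.1 hi).2], Finset.sum_const,
    nsmul_eq_mul, ← card_elts]
  congr 2
  refine Finset.card_equiv (Equiv.mulLeft u⁻¹) fun i => ?_
  simp only [Finset.mem_filter, mem_elts, coe_top, Set.mem_univ, true_and, Equiv.coe_mulLeft,
    SetLike.mem_coe, mem_centralizer_singleton_iff]
  constructor <;> intro h
  · rw [mul_assoc, eq_mul_of_mul_inv_eq h]; group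
  · rw [← mul_inv_cancel_left u (i * _), ← mul_assoc u⁻¹, h]; group

omit hp in
theorem class_mul (x g : G) : ∃ N : ℕ, (♯𝐂[g] : ℂ) ^ 2 * N =
    Nat.card G * ∑ θ ∈ Irr ⊤, conj (θ x) * (θ g * conj (θ g) / θ 1) := by
  classical
  have h := GW.sum_prod_conj (H := ⊤) (X := ⊤) (α := Pi.single x 1) le_rfl
    (fun _ h => absurd (mem_top _) h) (mem_top g) (mem_top g⁻¹)
  obtain ⟨N, hN⟩ : IsCnat (∑ a ∈ elts (classSupp {g} ⊤), ∑ b ∈ elts (classSupp {g⁻¹} ⊤),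
      (Pi.single x 1 : G → ℂ) (a * b)) := isCnat_sum fun a _ => isCnat_sum fun b _ => by
    rw [Pi.single_apply]; split_ifs; exacts [isCnat_one, isCnat_zero]
  have h1 : 𝐂[g⁻¹] = 𝐂[g] := by
    ext; simp only [mem_centralizer_singleton_iff]; exact Commute.inv_right_iff
  rw [Finset.sum_congr rfl fun i _ => sum_conj g⁻¹ fun b => (Pi.single x 1 : G → ℂ) (i * g * i⁻¹ * b),
    ← Finset.mul_sum, sum_conj g fun a => ∑ b ∈ _, (Pi.single x 1 : G → ℂ) (a * b), hN, h1,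
    mul_assoc, Finset.mul_sum, Finset.mul_sum] at h
  refine ⟨N, ?_⟩
  rw [sq, mul_assoc, h, Finset.mul_sum]
  refine Finset.sum_congr rfl fun θ hθ => ?_
  have := cardC_ne_zero (⊤ : Subgroup G)
  rw [cfdotE, Finset.sum_eq_single_of_mem x (by simp) fun b _ hb => by simp [hb],
    char_inv (mem_Irr.1 hθ).isChar, ← card_top (G := G)]
  simp only [Pi.single_eq_same, one_mul]
  field_simp

theorem arithF3 {a p W M S1 S2 S3 : ℤ} (ha : 3 ≤ a) (hp : p = a * a + a + 1) (hM : 0 ≤ M)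
    (h1 : (a + 1) ^ 2 + a ^ 2 * (a + 1) ^ 2 * -a + S1 = 0)
    (h2 : (a + 1) * (a + 1) ^ 4 + a ^ 2 * (a + 1) ^ 2 * ((p - 1) * (p - a)) + (a + 1) * S2 =
      p * (a * (a ^ 2 * (a + 1) ^ 2)) * (a + 1))
    (h3 : (a + 1) ^ 2 * (a + 1) ^ 6 - a ^ 2 * (a + 1) ^ 2 * ((p - 1) * (p - a)) + (a + 1) ^ 2 * S3 =
      p * (a * (a ^ 2 * (a + 1) ^ 2)) * M) (h4 : S3 = (a + 1) ^ 2 * W)
    (h5 : p * a * (a + 1) ^ 2 * (2 * (a - 1)) ≤ -S3 + (a - 1) * S2 + a * S1) : a ≤ 4 := by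
  have t0 : a + 1 ≠ 0 := by omega
  have e1 : S1 = (a + 1) ^ 2 * (p * (a - 1)) := by rw [hp]; linear_combination h1
  have e2 : S2 = (a + 1) ^ 2 * (p * (a ^ 2 - a - 1)) :=
    mul_left_cancel₀ t0 (by rw [hp] at h2 ⊢; linear_combination h2)
  have e3 : p * a ^ 3 * M = (a + 1) * (p * (5 * a ^ 2 + 4 * a + 1) + (a + 1) * W) :=
    mul_left_cancel₀ (pow_ne_zero 2 t0) (by rw [h4, hp] at h3; rw [hp]; linear_combination -h3)
  obtain ⟨M, rfl⟩ : a + 1 ∣ M := by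
    refine IsCoprime.dvd_of_dvd_mul_left ?_ (Dvd.intro _ e3.symm)
    exact ⟨a ^ 4 + a ^ 2 - a + 1, -1, by rw [hp]; ring⟩
  have e4 : p * a ^ 3 * M = p * (5 * a ^ 2 + 4 * a + 1) + (a + 1) * W :=
    mul_left_cancel₀ t0 (by linear_combination e3)
  have e5 : a + 1 ≤ M + 2 := Int.le_of_dvd
    (by have := nonneg_of_mul_nonneg_right hM (by omega); omega)
    ⟨(a ^ 4 + a ^ 2 - a + 1) * M - W - (5 * a ^ 3 + 4 * a ^ 2 + 6 * a - 1), by
      rw [hp] at e4; linear_combination -e4⟩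
  have p0 : 0 < p := by rw [hp]; positivity
  have e6 : (a + 1) * (p * (a ^ 3 - 2 * a ^ 2 - 3 * a - 1)) ≤ (a + 1) * W := by
    have : p * a ^ 3 * (a - 1) ≤ p * a ^ 3 * M :=
      mul_le_mul_of_nonneg_left (by omega) (by positivity)
    linear_combination this + e4
  have e7 := le_of_mul_le_mul_left e6 (by omega)
  have e8 : (a + 1) ^ 2 * (p * (2 * a * (a - 1))) ≤ (a + 1) ^ 2 * (p * (a ^ 2 + 2 * a + 2)) := by
    have := mul_le_mul_of_nonneg_left e7 (sq_nonneg (a + 1))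
    rw [e1, e2, h4] at h5
    linear_combination this + h5
  have := le_of_mul_le_mul_left (le_of_mul_le_mul_left e8 (by positivity)) p0
  clear * - this
  nlinarith

namespace Dat.Brauer
variable {d : Dat p x y K H} {I : Finset (G → ℂ)} {δ : (G → ℂ) → ℤ} {ξ : d.J → G → ℂ} {δ0 : ℤ}
  (b : d.Brauer I δ ξ δ0) (hK : K = ⊥)
include b hK

theorem ξ_int (ht : Nat.card d.J ≠ 1) {g : G} (hg : ¬ p ∣ orderOf g) : IsCint (ξ 1 g) := by
  classical
  refine isCint_of_forall_aut (Aint_char (b.irrξ 1).isChar g) fun v => ?_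
  obtain ⟨u, h1, h2⟩ := dvd_restrict_cfAut (G := G) (orderOf g) v
  have hv := irr_vchar (b.irrξ 1)
  have h3 := (b.irrξ 1).cfAut u
  have h4 : ∀ j, ⟪cfAut u (ξ 1), d.aJ j⟫[⊤] = ⟪ξ 1, d.aJ j⟫[⊤] := fun j => by
    rw [aJ, d.dot_al h3.mem_CF, d.dot_al (b.irrξ 1).mem_CF]
    refine congrArg _ (Finset.sum_congr rfl fun i _ => ?_)
    by_cases hi : i = 0
    · simp [hi]
    congr 1
    refine Finset.sum_congr rfl fun k hk => h2 _ _ _ hv ?_
    rw [mem_bot.1 (hK.le (mem_elts.1 hk)), mul_one,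
      orderOf_eq_prime (xp_pow_p d.ord i) fun e => hi ((xp_eq_one d.ord).1 e)]
    exact hp.out.coprime_iff_not_dvd.2 hg
  rw [← h1 _ _ _ hv dvd_rfl, ← cfAutE]
  by_cases i1 : cfAut u (ξ 1) ∈ I
  · have : Nontrivial d.J := Finite.one_lt_card_iff_nontrivial.1
      (lt_of_le_of_ne Nat.card_pos ht.symm)
    obtain ⟨j, hj⟩ := exists_ne (1 : d.J)
    have := h4 j
    rw [b.dotI i1, b.dotξ, if_neg hj] at this
    rcases b.sign _ i1 with e | e <;> simp [e] at this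
  by_cases i2 : cfAut u (ξ 1) ∈ Set.range ξ
  · obtain ⟨j, e⟩ := i2
    rw [← e, b.ξ_reg j 1 hg]
  · have := h4 1
    rw [b.dot0 h3 i1 i2, b.dotξ, if_pos rfl] at this
    rcases b.sign0 with e | e <;> simp [e] at this

theorem sq_xp {i : ZMod p} (hi : i ≠ 0) :
    ∑ j, ξ j (xp x i) * conj (ξ j (xp x i)) = p - Nat.card d.E := by
  have h := second_orthogonality_relation (H := ⊤) (mem_top (xp x i)) (mem_top (xp x i))
  rw [if_pos ⟨1, mem_top _, by simp⟩, top_inf_eq, d.cent_xp hi, d.C_eq hK, d.cardP,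
    b.sum_Irr _ fun θ hθ h1 h2 => by rw [b.val0 hK hθ h1 h2 hi, zero_mul],
    Finset.sum_congr rfl fun θ hθ => (by
      rw [b.valI' hθ hi]; rcases b.sign θ hθ with e | e <;> simp [e] : _ = (1 : ℂ)),
    Finset.sum_const, b.card] at h
  simp only [nsmul_eq_mul, mul_one] at h
  linear_combination h

theorem class_mul' {g : G} (hg : ¬ p ∣ orderOf g) : ∃ N : ℕ, (♯𝐂[g] : ℝ) ^ 2 * N =
    Nat.card G * (∑ θ ∈ I, δ θ * (‖θ g‖ ^ 2 / dg θ) + δ0 * (‖ξ 1 g‖ ^ 2 / dg (ξ 1))) := by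
  obtain ⟨N, hN⟩ := class_mul (xp x (1 : ZMod p)) g
  rw [b.sum_Irr _ fun θ hθ h1 h2 => by rw [b.val0 hK hθ h1 h2 one_ne_zero, map_zero, zero_mul],
    Finset.sum_congr (s₁ := I) rfl fun θ hθ => by
      rw [b.valI' hθ one_ne_zero, map_intCast, Complex.mul_conj', dg_eq (b.irrI θ hθ).isChar],
    Finset.sum_congr (s₁ := Finset.univ) rfl fun j _ => by
      rw [b.ξ_reg j 1 hg, Complex.mul_conj', dg_eq (b.irrξ j).isChar, b.dgξ j 1],
    ← Finset.sum_mul, ← map_sum, b.Xi_val one_ne_zero, map_intCast] at hN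
  exact ⟨N, by exact_mod_cast hN⟩

set_option maxHeartbeats 1000000 in
theorem F3 {a f1 f4 : ℕ} {χ : G → ℂ} {S3 : Finset (G → ℂ)} (ha : 3 ≤ a) (ho : Odd a)
    (hpa : p = a * a + a + 1) (he : Nat.card d.E = a) (ht : Nat.card d.J = a + 1) (e0 : δ0 = -1)
    (h0 : dg (ξ 1) = (a + 1) ^ 2) (hn : (𝐍(zpowers x)).index = a ^ 2 * (a + 1) ^ 2)
    (c : Cen I δ f1 (a ^ 3) (p - 1) f4 ∅ {χ} S3 ∅) : a = 3 := by
  classical
  have hG := d.cardG' hK
  rw [he, hn] at hG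
  obtain ⟨χI, -, χd⟩ := c.h2 χ (Finset.mem_singleton_self χ)
  have hz : ∀ g, ¬ p ∣ orderOf g → ∃ z : ℤ, ξ 1 g = z := fun g hg => b.ξ_int hK (by omega) hg
  choose! z hz using hz
  have hj : ∀ j g, ¬ p ∣ orderOf g → ξ j g = z g := fun j g hg => by rw [b.ξ_reg j 1 hg, hz g hg]
  have h1 : ∀ j, ξ j 1 = (a + 1) ^ 2 := fun j => by
    rw [dg_eq (b.irrξ j).isChar, b.dgξ j 1, h0]; simp
  have i1 : ∀ l : ℕ, l.Prime → l ∣ a → ¬ l ∣ p * (a + 1) ^ 2 := fun l hl h h' => by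
    refine hl.not_dvd_one ((Nat.dvd_add_right (h.mul_right (a ^ 3 + 3 * a ^ 2 + 4 * a + 3))).1 ?_)
    convert h' using 1; rw [hpa]; ring
  have hχ : ∀ (g : G) (l : ℕ), l.Prime → l ∣ a → l ∣ orderOf g → χ g = 0 := fun g l hl h h' =>
    dz (b.irrI χ χI) (by rw [χd, hG]; ring) hl (i1 l hl h) h'
  have cls : ∀ g, ¬ p ∣ orderOf g → χ g = 0 → 1 - ∑ θ ∈ S3, θ g = z g ∧ ∃ N : ℕ,
      (♯𝐂[g] : ℝ) ^ 2 * N = Nat.card G *
        (1 - (∑ θ ∈ S3, ‖θ g‖ ^ 2) / (p - 1 : ℕ) - z g ^ 2 / (a + 1) ^ 2) := fun g hg h => by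
    have i2 := b.cen_reg c 1 hg
    obtain ⟨N, hN⟩ := b.class_mul' hK hg
    rw [c.sum, b.δ_one, dg_one, cf1E (mem_top _), Finset.sum_congr (s₁ := S3) rfl fun θ hθ => by
      rw [(c.h3 θ hθ).2.1, (c.h3 θ hθ).2.2], hz g hg, h0, e0] at hN
    simp only [Finset.sum_empty, Finset.sum_singleton, h, e0, hz g hg] at i2 hN
    refine ⟨by push_cast at i2; linear_combination i2, N, ?_⟩
    rw [hN, ← Finset.mul_sum, ← Finset.sum_div]
    congr 1
    simp; ring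
  have hle : ∀ g, ¬ p ∣ orderOf g → g ≠ 1 → z g ≤ a := fun g hg g1 => by
    obtain ⟨l, hl, hl'⟩ := Nat.exists_prime_and_dvd (fun e => g1 (orderOf_eq_one_iff.1 e))
    by_cases e : l ∣ a
    · obtain ⟨i2, N, hN⟩ := cls g hg (hχ g l hl e hl')
      by_contra i3
      have i4 : (a + 1 : ℝ) ≤ z g := by exact_mod_cast (by omega : (a + 1 : ℤ) ≤ z g)
      have i5 : (1 : ℝ) ≤ z g ^ 2 / (a + 1) ^ 2 := by
        rw [one_le_div (by positivity)]; gcongr
      have i6 := nonneg_of_mul_nonneg_right ((by positivity : (0 : ℝ) ≤ _).trans_eq hN)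
        (by exact_mod_cast Nat.card_pos (α := G))
      have i7 : (0 : ℝ) < (p - 1 : ℕ) := by exact_mod_cast (by omega : 0 < p - 1)
      have i8 : ∑ θ ∈ S3, ‖θ g‖ ^ 2 ≤ 0 := by
        have := (div_le_iff₀ i7).1 (by linarith : (∑ θ ∈ S3, ‖θ g‖ ^ 2) / (p - 1 : ℕ) ≤ 0)
        rwa [zero_mul] at this
      rw [Finset.sum_eq_zero fun θ hθ => norm_eq_zero.1 (pow_eq_zero_iff two_ne_zero |>.1
        (le_antisymm ((Finset.single_le_sum (f := fun θ : G → ℂ => ‖θ g‖ ^ 2)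
          (fun _ _ => sq_nonneg _) hθ).trans i8) (sq_nonneg _))), sub_zero] at i2
      have : z g = 1 := by exact_mod_cast i2.symm
      omega
    · have := dz (b.irrξ 1) (m := p * a ^ 3) (by rw [h0, hG]; ring) hl (fun e' =>
        (hl.dvd_mul.1 e').elim (fun e' => hg ((Nat.prime_dvd_prime_iff_eq hl hp.out).1 e' ▸ hl'))
          fun e' => e (hl.dvd_of_dvd_pow e')) hl'
      rw [hz g hg] at this
      have : z g = 0 := by exact_mod_cast this
      omega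
  have yo := (d.orderOf_y hK).trans he
  have y1 : y ≠ 1 := fun e => by rw [e, orderOf_one] at yo; omega
  have yp : ¬ p ∣ orderOf y := fun e => d.cop (e.trans (orderOf_dvd_natCard _ d.yH))
  obtain ⟨l, hl, hl'⟩ := Nat.exists_prime_and_dvd (by omega : a ≠ 1)
  obtain ⟨i2, N, hN⟩ := cls y yp (hχ y l hl hl' (yo ▸ hl'))
  have i3 : ∀ θ ∈ S3, θ y = 0 := fun θ hθ => b.γ_zero (c.h3 θ hθ).1 (c.h3 θ hθ).2.1
    (c.h3 θ hθ).2.2 (d.norm d.yH) (d.not_C hK d.yH y1)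
  rw [Finset.sum_eq_zero i3, sub_zero] at i2
  have zy : z y = 1 := by exact_mod_cast i2.symm
  have i4 : ♯𝐂[y] ^ 2 * N = p * a ^ 4 * (a + 2) := by
    rw [Finset.sum_eq_zero fun θ hθ => by rw [i3 θ hθ]; simp, zy, hG] at hN
    have : (♯𝐂[y] : ℝ) ^ 2 * N = p * a ^ 4 * (a + 2) := by
      rw [hN]; push_cast; field_simp; ring
    exact_mod_cast this
  obtain ⟨m, hm⟩ : (a + 1) ^ 2 ∣ (𝐂[y]).index := by
    have := Aint_class_div_irr1 (b.irrξ 1) y
    rw [top_inf_eq, relIndex_top_right, hz y yp, zy, Int.cast_one, mul_one, h1] at this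
    exact Int.natCast_dvd_natCast.1 (int_dvd_of_Aint_div (by positivity) (by push_cast; exact this))
  have i5 : ♯𝐂[y] * m = p * a ^ 3 := by
    apply Nat.eq_of_mul_eq_mul_left (by positivity : 0 < (a + 1) ^ 2)
    rw [mul_left_comm, ← hm, card_mul_index, hG]; ring
  have i6 : ♯𝐂[y] ∣ a ^ 2 := by
    have j0 : p.Coprime a := Nat.coprime_of_lt_prime (by omega) (by nlinarith) hp.out
    have j1 : p.Coprime (a + 2) := Nat.coprime_of_lt_prime (by omega) (by nlinarith) hp.out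
    have j2 : a.Coprime (a + 2) := by simpa using ho
    have j3 : ♯𝐂[y] ^ 2 ∣ p * a ^ 4 := Nat.Coprime.dvd_of_dvd_mul_right
      ((Nat.Coprime.mul_left j1 (j2.pow_left 3)).coprime_dvd_left (Dvd.intro _ i5) |>.pow_left 2)
      (Dvd.intro _ i4)
    have j4 : ¬ p ∣ ♯𝐂[y] := fun h => (hp.out.coprime_iff_not_dvd.1 (j0.pow_right 4))
      (Nat.dvd_of_mul_dvd_mul_left hp.out.pos (sq p ▸ (pow_dvd_pow_of_dvd h 2).trans j3))
    rw [← Nat.pow_dvd_pow_iff two_ne_zero, ← pow_mul]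
    exact ((hp.out.coprime_iff_not_dvd.2 j4).symm.pow_left 2).dvd_of_dvd_mul_left j3
  have i7 : p * a ≤ m := by
    refine Nat.le_of_mul_le_mul_left ?_ (Nat.card_pos (α := 𝐂[y]))
    rw [i5, show p * a ^ 3 = a ^ 2 * (p * a) by ring]
    exact Nat.mul_le_mul_right _ (Nat.le_of_dvd (by positivity) i6)
  set R := elts {g : G | ¬ p ∣ orderOf g ∧ g ≠ 1} with hR
  have hR' : ∀ g ∈ R, ¬ p ∣ orderOf g := fun g hg => (mem_elts.1 hg).1
  have s1 := d.sum_split hK (b.irrξ 1).mem_CF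
  rw [(b.irrξ 1).sum_eq_zero (b.ξ_ne 1), h1, b.sumξ, hn, he, e0,
    Finset.sum_congr rfl fun g hg => hz g (hR' g hg)] at s1
  have hΨ : IsChar ⊤ (∑ j, ξ j * star (ξ j)) :=
    isChar_sum fun j _ => (b.irrξ j).isChar.mul (b.irrξ j).isChar.star
  have hΞ : IsChar ⊤ (∑ j, ξ j) := isChar_sum fun j _ => (b.irrξ j).isChar
  have v1 : (∑ j, ξ j * star (ξ j)) 1 = (a + 1) * (a + 1) ^ 4 := by
    simp [h1, ← Nat.card_eq_fintype_card, ht]; left; ring
  have v2 : ∀ u : (ZMod p)ˣ, (∑ j, ξ j * star (ξ j)) (xp x (u : ZMod p)) = p - a := fun u => by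
    rw [← he, ← b.sq_xp hK u.ne_zero]; simp
  have v3 : ∀ g ∈ R, (∑ j, ξ j * star (ξ j)) g = (a + 1) * z g ^ 2 := fun g hg => by
    simp [hj _ g (hR' g hg), ← Nat.card_eq_fintype_card, ht]; left; ring
  have hG0 := cardC_ne_zero (⊤ : Subgroup G)
  have s2 := d.sum_split hK hΨ.mem_CF
  have s2' : ⟪∑ j, ξ j * star (ξ j), cf1 ⊤⟫[⊤] = a + 1 := by
    rw [cfdot_suml, Finset.sum_congr rfl fun j _ => by
      rw [← cfdot_mul_right, mul_cf1 (b.irrξ j).mem_CF, cfdot_irr_self (b.irrξ j)]]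
    simp [← Nat.card_eq_fintype_card, ht]
  rw [cfdot_cf1r, inv_mul_eq_iff_eq_mul₀ hG0, s2, v1, Finset.sum_congr rfl fun u _ => v2 u,
    Finset.sum_congr rfl v3, card_top, hG, hn, ← Finset.mul_sum] at s2'
  obtain ⟨M, hM⟩ := Cnat_cfdot_char hΨ hΞ
  have s3 := d.sum_split hK (hΨ.mul hΞ.star).mem_CF
  simp only [Pi.mul_apply, cfConjCE] at s3
  rw [cfdotE, inv_mul_eq_iff_eq_mul₀ hG0, s3, v1,
    Finset.sum_congr (s₁ := (Finset.univ : Finset (ZMod p)ˣ)) rfl fun u _ => by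
      rw [v2 u, Finset.sum_apply, b.Xi_val u.ne_zero, e0],
    Finset.sum_congr (s₁ := R) rfl fun g hg => (by
      rw [v3 g hg]; simp [hj _ g (hR' g hg), ← Nat.card_eq_fintype_card, ht]; ring :
        _ = ((a : ℂ) + 1) ^ 2 * z g ^ 3), card_top, hG, hn, ← Finset.mul_sum] at hM
  simp only [Finset.sum_apply, h1, Finset.sum_const, Finset.card_univ, ZMod.card_units,
    ← Nat.card_eq_fintype_card (α := d.J), ht, nsmul_eq_mul, Nat.cast_sub hp.out.one_le] at hM s2'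
  obtain ⟨W, hW⟩ : ((a : ℤ) + 1) ^ 2 ∣ ∑ g ∈ R, z g ^ 3 := by
    have hf := indicator_mem_CF (H := ⊤) (A := {g : G | ¬ p ∣ orderOf g ∧ g ≠ 1})
      (fun _ _ => mem_top _) (fun g _ u hu => ⟨by rw [orderOf_conj]; exact hu.1,
        fun e => hu.2 (conj_eq_one_iff.1 e)⟩) ((b.irrξ 1).isChar.mul (b.irrξ 1).isChar).mem_CF
    have := Aint_central (b.irrξ 1) hf.1 fun g => by
      rw [Set.indicator_apply]; split_ifs
      exacts [Aint_char ((b.irrξ 1).isChar.mul (b.irrξ 1).isChar) g, isIntegral_zero]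
    rw [← sum_elts_subset (A := {g : G | ¬ p ∣ orderOf g ∧ g ≠ 1}) (fun _ _ => mem_top _)
      fun g _ hg => by rw [Set.indicator_of_notMem hg, zero_mul], h1,
      Finset.sum_congr rfl fun g hg => (by
        rw [Set.indicator_of_mem (mem_elts.1 hg), Pi.mul_apply, hz g (hR' g hg)]; ring :
          _ = (z g : ℂ) ^ 3)] at this
    exact int_dvd_of_Aint_div (by positivity) (by exact_mod_cast this)
  have hU : elts (classSupp {y} ⊤) ⊆ R := fun g hg => by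
    obtain ⟨_, rfl, u, -, rfl⟩ := mem_classSupp.1 (mem_elts.1 hg)
    exact mem_elts.2 ⟨by rwa [orderOf_conj], fun e => y1 (conj_eq_one_iff.1 e)⟩
  have s4 := Finset.sum_le_sum_of_subset_of_nonneg (f := fun g => z g * (z g + 1) * (a - z g)) hU
    fun g hg _ => mul_nonneg (by rcases le_or_gt 0 (z g) with h | h <;> nlinarith)
      (sub_nonneg.2 (hle g (hR' g hg) (mem_elts.1 hg).2))
  rw [Finset.sum_congr rfl fun g hg => (by
      have h := hz g (hR' g (hU hg))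
      obtain ⟨_, rfl, u, -, rfl⟩ := mem_classSupp.1 (mem_elts.1 hg)
      rw [cfunJ (b.irrξ 1).mem_CF (mem_top u), hz _ yp, zy, Int.cast_inj] at h
      rw [← h]; ring : _ = 2 * ((a : ℤ) - 1)), Finset.sum_const, card_elts_set,
    (ti_single y).ncard_classSupp, Set.ncard_singleton, one_mul, relIndex_top_right, hm,
    nsmul_eq_mul] at s4
  have := arithF3 (a := a) (p := p) (W := W) (M := M) (S1 := ∑ g ∈ R, z g)
    (S2 := ∑ g ∈ R, z g ^ 2) (by omega) (by exact_mod_cast hpa) (Int.natCast_nonneg _)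
    (by exact_mod_cast (by push_cast at s1 ⊢; linear_combination -s1 :
      ((a : ℂ) + 1) ^ 2 + a ^ 2 * (a + 1) ^ 2 * -a + ∑ g ∈ R, (z g : ℂ) = 0))
    (by exact_mod_cast (by push_cast at s2' ⊢; linear_combination s2' :
      ((a : ℂ) + 1) * (a + 1) ^ 4 + a ^ 2 * (a + 1) ^ 2 * ((p - 1) * (p - a)) +
        (a + 1) * ∑ g ∈ R, (z g : ℂ) ^ 2 = p * (a * (a ^ 2 * (a + 1) ^ 2)) * (a + 1)))
    (by exact_mod_cast (by simp [← Finset.mul_sum] at hM ⊢; linear_combination hM :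
      ((a : ℂ) + 1) ^ 2 * (a + 1) ^ 6 - a ^ 2 * (a + 1) ^ 2 * ((p - 1) * (p - a)) +
        (a + 1) ^ 2 * ∑ g ∈ R, (z g : ℂ) ^ 3 = p * (a * (a ^ 2 * (a + 1) ^ 2)) * M)) hW
    (by
      have : ((p * a : ℕ) : ℤ) * (a + 1) ^ 2 * (2 * (a - 1)) ≤ m * (a + 1) ^ 2 * (2 * (a - 1)) := by
        gcongr; omega
      rw [Finset.mul_sum, Finset.mul_sum, ← Finset.sum_neg_distrib, ← Finset.sum_add_distrib,
        ← Finset.sum_add_distrib, Finset.sum_congr rfl fun g _ =>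
          (by ring : _ = z g * (z g + 1) * (a - z g))]
      push_cast at this s4
      linarith)
  obtain ⟨k, rfl⟩ := ho
  omega

end Dat.Brauer
end Cfsg.Agent.BR
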