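import Cfsg.Agent.Lib.BR.CaseA
import Cfsg.Agent.Lib.BR.F3

/-!
# The exceptional factorisation
-/

set_option autoImplicit false

namespace Cfsg.Agent.BR

open Subgroup Cfsg.Agent.OO
open scoped ComplexConjugate Pointwise MatrixGroups

universe u

variable {G : Type u} [Group G] [Finite G] {p : ℕ} [hp : Fact p.Prime] {x y : G} {K H : Subgroup G}

omit hp in
theorem CaseB.copY {n a c X : ℕ} (h : CaseB p n a c X) : a.Coprime (p + a) := by
  rw [← h.hp]; simp

omit hp in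
theorem CaseB.copX {n a c X : ℕ} (h : CaseB p n a c X) : c.Coprime X := by
  rw [← Nat.coprime_add_self_right, h.hX, ← h.hp]; simp

omit hp in
theorem CaseB.one_of_dvd {n a c X t : ℕ} (h : CaseB p n a c X) (h1 : t ∣ a) (h2 : t ∣ c)
    (h3 : t ∣ n) : t = 1 :=
  Nat.eq_one_of_dvd_coprimes (Nat.Coprime.mul_right (h.copX.coprime_dvd_left h2)
    (h.copY.coprime_dvd_left h1)) dvd_rfl (h.hn ▸ h3)

omit hp in
theorem CaseB.not_dvd {n a c X l : ℕ} (h : CaseB p n a c X) (hl : l.Prime) (h1 : l ∣ a * c) :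
    ¬ l ∣ p := fun e => hl.not_dvd_one ((Nat.dvd_add_right h1).1 (h.hp ▸ e))

theorem arithA {p e n X Y c m : ℕ} (hn : n = X * Y) (hX : X + c = p) (he : e < Y) (h0 : 0 < n)
    (hp : 0 < p) (h1 : n ≤ m * (c * Y)) (h2 : n ^ 2 + m * (c * Y) ^ 2 ≤ p * (e * n)) : False := by
  have h3 := Nat.mul_le_mul_right (c * Y) h1
  have h4 : p * (e * n) < p * (Y * n) := by gcongr
  have h5 : p * (Y * n) = n ^ 2 + n * (c * Y) := by rw [← hX, sq]; nth_rw 2 [hn]; ring
  nlinarith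

theorem arithC {a c r g k l : ℤ} (ha : 3 ≤ a) (hc : 3 * (a + 1) ≤ c) (hr : r = a * c + a - c)
    (h1 : g * k = r + 1) (h2 : g ≤ a + 1) (h3 : k ≤ l - 1) (h4 : 0 ≤ k) (h : l ≤ a ∨ 2 * l ≤ c) :
    False := by
  have : g * k ≤ (a + 1) * (l - 1) := mul_le_mul h2 h3 h4 (by omega)
  rcases h with h | h <;> nlinarith

namespace Dat.Brauer
variable {d : Dat p x y K H} {I : Finset (G → ℂ)} {δ : (G → ℂ) → ℤ} {ξ : d.J → G → ℂ} {δ0 : ℤ}
  (b : d.Brauer I δ ξ δ0) (s : NS G) {r : ℕ} (hn : (𝐍(zpowers x)).index = 1 + r * p) (hr : r < p)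
  {a c X : ℕ} (hB : CaseB p (1 + r * p) a c X) {S1 S2 S3 S4 : Finset (G → ℂ)}
  (h : Cen I δ (1 + r * p) (a * X) (p - 1) (c * (p + a)) S1 S2 S3 S4)

omit [Finite G] in
include hB in
theorem et : Nat.card d.E * Nat.card d.J = a * c := by have := hB.hp; have := d.e_mul_t; omega

include b hn hB h in
theorem B2 (h2 : S2.card ≠ 0) : ∃ e', Nat.card d.E = a * e' ∧ e' * Nat.card d.J = c := by
  obtain ⟨θ, hθ⟩ := Finset.card_ne_zero.1 h2
  obtain ⟨i1, -, i2⟩ := h.h2 θ hθ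
  have h3 := (b.degI i1 (dg_eq (b.irrI θ i1).isChar)).1
  have h4 : X ≠ 0 := fun e => by have := hB.hn; rw [e] at this; omega
  rw [i2, hn, hB.hn, mul_left_comm, mul_comm a] at h3
  obtain ⟨e', he⟩ := hB.copY.dvd_of_dvd_mul_right (Nat.dvd_of_mul_dvd_mul_left (by omega) h3)
  refine ⟨e', he, Nat.eq_of_mul_eq_mul_left (by have := hB.ha; omega : 0 < a) ?_⟩
  rw [← mul_assoc, ← he, et hB]

include b hn hB h in
theorem B4 (h2 : S4.card ≠ 0) : ∃ e', Nat.card d.E = c * e' ∧ e' * Nat.card d.J = a := by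
  obtain ⟨θ, hθ⟩ := Finset.card_ne_zero.1 h2
  obtain ⟨i1, -, i2⟩ := h.h4 θ hθ
  have h3 := (b.degI i1 (dg_eq (b.irrI θ i1).isChar)).1
  have := hB.ha
  have := hB.hab
  rw [i2, hn, hB.hn, ← mul_assoc] at h3
  obtain ⟨e', he⟩ := hB.copX.dvd_of_dvd_mul_right (Nat.dvd_of_mul_dvd_mul_right (by omega) h3)
  refine ⟨e', he, Nat.eq_of_mul_eq_mul_left (by omega : 0 < c) ?_⟩
  rw [← mul_assoc, ← he, et hB, mul_comm]

include b s hn h in
theorem B3 (h2 : S3.card ≠ 0) : Even (Nat.card d.J) ∧ Nat.card d.J ∣ 1 + r * p := by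
  obtain ⟨θ, hθ⟩ := Finset.card_ne_zero.1 h2
  obtain ⟨i1, i2, i3⟩ := h.h3 θ hθ
  have h3 := (b.degI i1 (dg_eq (b.irrI θ i1).isChar)).1
  rw [i3, hn, ← d.e_mul_t] at h3
  exact ⟨b.det_I s i1 i2 i3, Nat.dvd_of_mul_dvd_mul_left Nat.card_pos h3⟩

include b s hn hr hB h

theorem Ba (h0 : δ0 = 1 ∧ Nat.card d.J * dg (ξ 1) = 1 + r * p ∨
    δ0 = 1 ∧ Nat.card d.J * dg (ξ 1) = a * X ∨ δ0 = -1 ∧ dg (ξ 1) = Nat.card d.E ∨
    δ0 = -1 ∧ Nat.card d.J * dg (ξ 1) = c * (p + a)) :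
    S1 = ∅ ∧ (Nat.card d.J = 1 → dg (ξ 1) ≠ 1 + r * p) := by
  have h1 := b.cen_sq h
  have h2 := b.cen_deg h 1
  have h3 := et (d := d) hB
  have h4 := hB.hp
  have h5 := hB.ha
  rw [d.cardG' (b.K_bot s hn hr hB), hn] at h1
  have key := fun m => arithA (e := Nat.card d.E) (m := m) hB.hn hB.hX
    (by have := Nat.le_mul_of_pos_right (Nat.card d.E) (Nat.card_pos (α := d.J)); omega)
    (by omega) hp.out.pos
  have h6 : Nat.card d.J = 1 → S3.card = 0 := fun e => by_contra fun e' =>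
    Nat.not_even_one (e ▸ (b.B3 s hn h e').1)
  obtain ⟨-, e2, -⟩ := hB.eqs
  generalize hN : 1 + r * p = n at *
  generalize c * (p + a) = Z at *
  generalize a * X = W at *
  simp only [← Nat.cast_mul] at h2
  have h7 : Nat.card d.J = 1 → dg (ξ 1) = Nat.card d.E → δ0 ≠ -1 := fun e e' e'' => by
    have := b.even_et s
    rw [e, mul_one] at this
    exact Nat.not_even_iff_odd.2 (b.det_ξ s 1 e'' e') this
  refine ⟨Finset.card_eq_zero.1 (by_contra fun e => ?_), fun e e' => ?_⟩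
  · have i1 : n ^ 2 ≤ S1.card * n ^ 2 := Nat.le_mul_of_pos_left _ (by omega)
    have i2 : n ≤ S1.card * n := Nat.le_mul_of_pos_left _ (by omega)
    have i3 : Nat.card d.J = 1 := by
      by_contra i3
      have i4 : Nat.card d.E * 2 ≤ a * c :=
        h3 ▸ Nat.mul_le_mul_left _ (by have := Nat.card_pos (α := d.J); omega)
      have i5 : n ≤ p * Nat.card d.E := Nat.le_of_mul_le_mul_right (by nlinarith) (by omega : 0 < n)
      have i6 : r < Nat.card d.E := lt_of_mul_lt_mul_right (a := p) (by linarith) (Nat.zero_le _)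
      have := Nat.mul_le_mul_right c h5
      omega
    rw [h6 i3] at h2
    rw [i3, one_mul] at h0 h1
    rcases h0 with ⟨e0, i⟩ | ⟨e0, i⟩ | ⟨e0, i⟩ | ⟨e0, i⟩
    · exact key S4.card (by rw [e0] at h2; omega) (by omega)
    · exact key S4.card (by rw [e0] at h2; omega) (by omega)
    · exact h7 i3 i e0
    · exact key (S4.card + 1) (by rw [e0, i] at h2; rw [add_mul]; omega)
        (by rw [i] at h1; rw [add_mul]; omega)
  · rw [h6 e, e'] at h2
    rw [e, one_mul, e'] at h0 h1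
    have e0 : δ0 = 1 := by
      rcases h0 with ⟨e0, i⟩ | ⟨e0, i⟩ | ⟨e0, i⟩ | ⟨e0, i⟩
      · exact e0
      · exact e0
      · exact absurd e0 (h7 e (e'.trans i))
      · have := b.modξ 1
        rw [e, e', e0, one_mul, ← hN] at this
        have i1 : (p : ℤ) ∣ 2 := (dvd_add_left (dvd_mul_left (p : ℤ) r)).1
          (by rwa [show (2 : ℤ) + r * p = (1 + r * p : ℕ) - -1 by push_cast; ring])
        have := Int.le_of_dvd two_pos i1
        have := hB.hab
        nlinarith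
    exact key S4.card (by rw [e0] at h2; omega) (by omega)

theorem Bb (e0 : δ0 = -1) (h0 : dg (ξ 1) = Nat.card d.E) (h1 : S1 = ∅)
    (hT : (S2.card : ℤ) * (a - 1) - S3.card - S4.card * (c + 1) = 0) : False := by
  have h2 := b.cen_card h
  have h3 := b.two_le_e s
  have h4 : S2.card ≠ 0 := fun e => by
    rw [e, ← Nat.cast_add_one, ← Nat.cast_mul] at hT
    have : S4.card ≤ S4.card * (c + 1) := Nat.le_mul_of_pos_right _ c.succ_pos
    generalize S4.card * (c + 1) = W at hT this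
    simp only [h1, Finset.card_empty] at h2
    omega
  obtain ⟨e', he, -⟩ := b.B2 hn hB h h4
  have h5 : Odd a := (Nat.odd_mul.1 (he ▸ b.det_ξ s 1 e0 h0)).1
  have h6 : 3 ≤ a := by have := hB.ha; obtain ⟨k, rfl⟩ := h5; omega
  obtain ⟨e1, e2, e3⟩ := hB.eqs
  have h7 : p + 2 ≤ a * X := by zify; rw [e3, e1]; have := hB.hab; nlinarith
  have := (b.prod_bound' s 1 e0 h0 (p + 2) (by omega) fun θ i1 i2 i3 => by
    rcases b.posI s hn hr i1 i2 i3 with i | ⟨_, _, _, i, i'⟩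
    · exact i ▸ h7.trans (caseB_le hB)
    · obtain ⟨rfl, rfl, rfl⟩ := hB.unique i
      exact i' ▸ h7).2
  omega

theorem Bc (e0 : δ0 = 1) (h0 : Nat.card d.J * dg (ξ 1) = 1 + r * p) (h1 : S1 = ∅)
    (ht : Nat.card d.J ≠ 1) (hT : Nat.card d.J *
      ((S2.card : ℤ) * (a - 1) - S3.card - S4.card * (c + 1)) + 1 + r = 0) :
    S2 = ∅ ∧ S4 = ∅ := by
  classical
  have hK := b.K_bot s hn hr hB
  have h2 := b.cen_card h
  have h3 := et (d := d) hB
  have t2 : 2 ≤ Nat.card d.J := by have := Nat.card_pos (α := d.J); omega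
  obtain ⟨e1, e2, e3⟩ := hB.eqs
  have ha := hB.ha
  have hac := hB.hab
  simp only [h1, Finset.card_empty, zero_add] at h2
  have h4 : (Nat.card d.J : ℤ) * (1 + S2.card * a - S4.card * c) = c - a - 1 := by
    zify at h2 h3; linear_combination hT + h3 - e2 - Nat.card d.J * h2
  have h5 : S4.card = 0 := by
    by_contra e
    obtain ⟨u, -, hu⟩ := b.B4 hn hB h e
    by_cases e' : S2.card = 0
    · rw [e'] at h4
      have : (1 : ℤ) * c ≤ S4.card * c := by gcongr; omega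
      have : (2 : ℤ) * (S4.card * c - 1) ≤ Nat.card d.J * (S4.card * c - 1) := by gcongr <;> omega
      push_cast at h4
      linarith
    · obtain ⟨v, -, hv⟩ := b.B2 hn hB h e'
      exact ht (hB.one_of_dvd (Dvd.intro_left _ hu) (Dvd.intro_left _ hv) (Dvd.intro _ h0))
  refine ⟨Finset.card_eq_zero.1 (by_contra fun e => ?_), Finset.card_eq_zero.1 h5⟩
  obtain ⟨v, he, hv⟩ := b.B2 hn hB h e
  simp only [h5, Nat.cast_zero, zero_mul, sub_zero] at h4 hT
  have h6 : a + 1 + Nat.card d.J * (1 + S2.card * a) = c := by zify; linear_combination h4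
  have h7 : Nat.card d.J ∣ a + 1 :=
    (Nat.dvd_add_left (dvd_mul_right _ _)).1 (h6 ▸ Dvd.intro_left _ hv)
  have h8 : Even (Nat.card d.J) := (b.B3 s hn h fun e => by
    rw [e, Nat.cast_zero, sub_zero] at hT
    have : (0 : ℤ) ≤ Nat.card d.J * (S2.card * (a - 1)) := by
      have : (0 : ℤ) ≤ a - 1 := by omega
      positivity
    omega).1
  have a3 : 3 ≤ a := by obtain ⟨k, hk⟩ := h8.two_dvd.trans h7; omega
  have c3 : 3 * (a + 1) ≤ c := by
    have : 2 * (1 + 1 * a) ≤ Nat.card d.J * (1 + S2.card * a) := by gcongr; omega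
    omega
  obtain ⟨g, hg, hg'⟩ : ∃ g ∈ sharp H, ξ 1 g ≠ 0 := by
    by_contra! hc
    obtain ⟨m, hm⟩ : p ∣ dg (ξ 1) + Nat.card d.E := by
      have := (b.degξ 1 (dg_eq (b.irrξ 1).isChar)).2.1
      rw [e0, mul_one] at this; exact_mod_cast this
    obtain ⟨k, -, hk⟩ := d.dot_N hK (b.irrξ 1).isChar (c := m) (by
      rw [b.sumξ, e0, dg_eq (b.irrξ 1).isChar]; exact_mod_cast by simpa using hm)
    rw [Finset.sum_eq_zero fun g hg => hc g (mem_elts.1 hg), add_zero] at hk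
    have i1 : m = Nat.card d.E * k := by exact_mod_cast hk
    have i2 : (a : ℤ) * c * k = r + 1 := by
      apply mul_left_cancel₀ (by omega : (p : ℤ) ≠ 0)
      zify at h0 hm i1 h3
      linear_combination h0 - Nat.card d.J * hm + h3 - e1 - p * k * h3 - p * Nat.card d.J * i1
    rcases k with _ | k
    · omega
    · push_cast at i2; nlinarith [mul_nonneg (mul_nonneg (Int.natCast_nonneg a)
        (Int.natCast_nonneg c)) (Int.natCast_nonneg k)]
  have i0 : ∀ g ∈ H, ¬ p ∣ orderOf g := fun g hg e => d.cop (e.trans (orderOf_dvd_natCard _ hg))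
  have i1 := d.rho_eq hK hg.1 hg.2
  rw [b.trickξ hK hn e0 h0 (i0 g hg.1) hg.2 hg'] at i1
  obtain ⟨l, hl, hl'⟩ := Nat.exists_prime_and_dvd fun e => hg.2 (orderOf_eq_one_iff.1 e)
  have := Fact.mk hl
  have i2 := orderOf_pow_orderOf_div (orderOf_pos g).ne' hl'
  have i3 : g ^ (orderOf g / l) ∈ zpowers g := npow_mem_zpowers _ _
  generalize g ^ (orderOf g / l) = w at i2 i3
  have w1 : w ≠ 1 := fun e => hl.ne_one (by rw [← i2, e, orderOf_one])
  have wH : w ∈ H := zpowers_le.2 hg.1 i3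
  have i4 : ♯𝐍(zpowers w) = Nat.card d.E * (r + 1) := by
    refine le_antisymm ?_ (le_of_eq_of_le (by exact_mod_cast i1) (card_le_of_le fun u hu =>
      (mem_N_iff i3).1 ((mem_normalizer_iff.1 hu w).1 i3)))
    have := d.rho_le hn (d.norm wH) (d.not_C hK wH w1)
    have := mul_le_mul_of_nonneg_left this (Nat.cast_nonneg (Nat.card d.E))
    rw [← Complex.norm_natCast, ← norm_mul, d.rho_eq hK wH w1, Complex.norm_natCast,
      Complex.norm_natCast] at this
    exact_mod_cast this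
  obtain ⟨k, hk, hk'⟩ := cardN_eq i2
  obtain ⟨f, hf⟩ : Nat.card d.E ∣ ♯𝐂[w] := d.cardH' hK ▸ card_dvd_of_le fun u hu => by
    rw [d.H_eq hK] at hu wH
    obtain ⟨i, rfl⟩ := hu
    obtain ⟨j, rfl⟩ := wH
    exact mem_centralizer_singleton_iff.2 (zpow_mul_comm y i j)
  have i5 : f * k = r + 1 :=
    Nat.eq_of_mul_eq_mul_left Nat.card_pos (by rw [← mul_assoc, ← hf, ← hk, i4])
  have i6 : f ∣ 1 + r * p := by
    have := card_subgroup_dvd_card 𝐂[w]
    rw [hf, d.cardG' hK, hn, mul_left_comm] at this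
    refine Nat.Coprime.dvd_of_dvd_mul_left ?_ (Nat.dvd_of_mul_dvd_mul_left Nat.card_pos this)
    exact ((Nat.coprime_of_lt_prime (by omega) (by omega) hp.out).symm).coprime_dvd_left
      (Dvd.intro _ i5)
  have i7 : f ∣ a * c := (Nat.dvd_add_right i6).1 ⟨k * p, by
    rw [← mul_assoc, i5, add_mul, ← hB.hp]; ring⟩
  have i8 : f ∣ Nat.card d.J * (1 + S2.card * a) := (Nat.dvd_add_right (Dvd.intro _ i5)).1
    (by rwa [show r + 1 + Nat.card d.J * (1 + S2.card * a) = a * c by omega])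
  have i9 : f.Coprime a := Nat.Coprime.coprime_dvd_left i8 (Nat.Coprime.mul_left
    (Nat.Coprime.coprime_dvd_left h7 (by simp)) (by simp))
  have j1 : f ∣ a + 1 := (Nat.dvd_add_left i8).1 (h6 ▸ i9.dvd_of_dvd_mul_left i7)
  have j2 : l ∣ a * v := he ▸ d.cardH' hK ▸ i2 ▸ orderOf_dvd_natCard _ wH
  have j3 := Nat.le_of_dvd (by have := hl.two_le; omega) hk'
  have j4 := Nat.le_of_dvd (by omega) j1
  refine arithC (a := a) (c := c) (g := f) (k := k) (l := l) (by omega) (by omega) e2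
    (by exact_mod_cast i5) (by omega) (by have := hl.two_le; omega) (by omega) ?_
  rcases hl.dvd_mul.1 j2 with j | j
  · exact .inl (by exact_mod_cast Nat.le_of_dvd (by omega) j)
  · have := Nat.le_of_dvd (Nat.pos_of_ne_zero fun e => by rw [e] at hv; omega) j
    have := Nat.mul_le_mul this t2
    exact .inr (by omega)

theorem Bd (h0 : Nat.card d.J * dg (ξ 1) = a * X) (h1 : S1 = ∅)
    (hT : Nat.card d.J * ((S2.card : ℤ) * (a - 1) - S3.card - S4.card * (c + 1)) + a = 0) :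
    False := by
  have hK := b.K_bot s hn hr hB
  have h2 := b.cen_card h
  have h3 := et (d := d) hB
  have t0 : 0 < Nat.card d.J := Nat.card_pos
  have ha := hB.ha
  have hac := hB.hab
  simp only [h1, Finset.card_empty, zero_add] at h2
  obtain ⟨u, hu⟩ : Nat.card d.J ∣ a := by
    have := Nat.dvd_gcd (Dvd.intro_left _ h3) (Dvd.intro _ h0)
    rwa [Nat.gcd_mul_left, hB.copX, mul_one] at this
  have he : Nat.card d.E = u * c :=
    Nat.eq_of_mul_eq_mul_right t0 (by rw [h3, hu]; ring)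
  have h4 : dg (ξ 1) = u * X := Nat.eq_of_mul_eq_mul_left t0 (by rw [h0, hu]; ring)
  have h5 : 1 + S2.card * a + u = (S4.card + u) * c := by
    zify at h2 h3 hu t0 ⊢
    apply mul_left_cancel₀ t0.ne'
    linear_combination hT + h3 - Nat.card d.J * h2 + (c - 1) * hu
  have u0 : u ≠ 0 := fun e => by rw [e] at hu; omega
  obtain ⟨v, hv⟩ : Nat.card d.J ∣ c := by
    by_cases e : S2.card = 0
    · rw [e] at h5
      have : (S4.card + u) * 2 ≤ (S4.card + u) * c := Nat.mul_le_mul_left _ (by omega)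
      obtain rfl : u = 1 := by omega
      rw [show S4.card = 0 by omega] at h5
      exact ⟨1, by omega⟩
    · obtain ⟨v, -, hv⟩ := b.B2 hn hB h e
      exact Dvd.intro_left _ hv
  have h6 : S3.card = 0 := by_contra fun e => by
    obtain ⟨i1, i2⟩ := b.B3 s hn h e
    rw [hB.one_of_dvd ⟨u, hu⟩ ⟨v, hv⟩ i2] at i1
    exact Nat.not_even_one i1
  by_cases u1 : u = 1
  · subst u1
    have : a ∣ 2 := (Nat.dvd_add_left (dvd_mul_left a S2.card)).1 (by
      rw [show 2 + S2.card * a = (S4.card + 1) * c by omega, hu, mul_one, hv]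
      exact (dvd_mul_right _ _).mul_left _)
    obtain rfl : a = 2 := (Nat.le_of_dvd two_pos this).antisymm ha
    rcases Nat.eq_zero_or_pos S4.card with e | e
    · rw [e] at h5; omega
    · have := Nat.mul_le_mul_right c e
      rw [add_mul] at h5; omega
  have h7 : ∀ l : ℕ, l.Prime → l ∣ u → ¬ l ∣ c := fun l hl i1 i2 => hl.not_dvd_one
    ((Nat.dvd_add_left ((hu ▸ i1.mul_left _ : l ∣ a).mul_left S2.card)).1
      ((Nat.dvd_add_left i1).1 (h5 ▸ i2.mul_left _)))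
  obtain ⟨l, hl, hl'⟩ := Nat.exists_prime_and_dvd u1
  obtain ⟨q, hq, hq'⟩ := Nat.exists_prime_and_dvd (by omega : c ≠ 1)
  have la : l ∣ a := hu ▸ hl'.mul_left _
  have yo := (d.orderOf_y hK).trans he
  have hG := d.cardG' hK
  rw [hn, hB.hn, he] at hG
  have i1 : ¬ l ∣ p * c * (p + a) := fun e => by
    rcases hl.dvd_mul.1 e with e | e
    · exact (hl.dvd_mul.1 e).elim (hB.not_dvd hl (la.mul_right _)) (h7 l hl hl')
    · exact hl.ne_one (Nat.eq_one_of_dvd_coprimes hB.copY la e)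
  have := b.cen_reg h 1 (g := y) fun e => d.cop (e.trans (orderOf_dvd_natCard _ d.yH))
  rw [h1, Finset.card_eq_zero.1 h6, Finset.sum_eq_zero (s := S2) fun θ hθ =>
    dz (b.irrI θ (h.h2 θ hθ).1) (m := p * v * (p + a)) (by
      rw [(h.h2 θ hθ).2.2, hG]; nth_rw 1 [hv]; nth_rw 2 [hu]; ring) hl (fun e => i1 (e.trans (by
        rw [hv]; gcongr; exact dvd_mul_left _ _))) (yo ▸ hl'.mul_right _),
    Finset.sum_eq_zero (s := S4) fun θ hθ => dz (b.irrI θ (h.h4 θ hθ).1) (m := p * u * X)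
      (by rw [(h.h4 θ hθ).2.2, hG]; ring) hq (fun e => by
        rcases hq.dvd_mul.1 e with e | e
        · exact (hq.dvd_mul.1 e).elim (hB.not_dvd hq (hq'.mul_left _)) fun e => h7 q hq e hq'
        · exact hq.ne_one (Nat.eq_one_of_dvd_coprimes hB.copX hq' e)) (yo ▸ hq'.mul_left _),
    dz (b.irrξ 1) (m := p * c * (p + a)) (by rw [h4, hG]; ring) hl i1 (yo ▸ hl'.mul_right _)]
    at this
  simp at this

omit hr hB h in
theorem F1 (hK : K = ⊥) {f1 f3 f4 : ℕ} {χ : G → ℂ} (he : Nat.card d.E = 2) (e0 : δ0 = -1)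
    (h0 : dg (ξ 1) = p + 2) (h1 : 2 * (1 + r * p) = (p + 1) * (p + 2))
    (h : Cen I δ f1 (p + 1) f3 f4 ∅ {χ} ∅ ∅) :
    ∃ m, 2 ≤ m ∧ p + 1 = 2 ^ m ∧ Nonempty (G ≃* PSL(2, GaloisField 2 m)) := by
  classical
  have hG := d.cardG' hK
  rw [he, hn, h1] at hG
  have h3 := d.e_mul_t
  have hp2 := hp.out.two_le
  rw [he] at h3
  obtain ⟨χI, χs, χd⟩ := h.h2 χ (Finset.mem_singleton_self χ)
  have h4 : ∀ g, 2 ∣ orderOf g → ¬ p ∣ orderOf g ∧ χ g = 0 ∧ ∀ j, ξ j g = 1 := fun g hg => by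
    have i1 : ¬ p ∣ orderOf g := fun e => by rw [d.ord_sing hK e] at hg; omega
    have i2 := dz (b.irrI χ χI) (m := p * (p + 2)) (by rw [χd, hG]; ring) Nat.prime_two
      (fun e => by rcases Nat.prime_two.dvd_mul.1 e with e | e <;> omega) hg
    refine ⟨i1, i2, fun j => ?_⟩
    have := b.cen_reg h j i1
    simp only [Finset.sum_empty, Finset.sum_singleton, i2, e0] at this
    push_cast at this
    linear_combination -this
  have h5 : ∀ g ∈ H, g ≠ 1 → orderOf g = 2 := fun g hg g1 =>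
    ((Nat.dvd_prime Nat.prime_two).1 (he ▸ d.cardH' hK ▸ orderOf_dvd_natCard _ hg)).resolve_left
      fun e => g1 (orderOf_eq_one_iff.1 e)
  have h6 : (elts (sharp H)).card = 1 := by
    rw [card_elts_set, sharp, Set.ncard_sdiff_singleton_of_mem (one_mem H)]
    exact congrArg (· - 1) ((d.cardH' hK).trans he)
  have h7 : ∀ θ, IsIrr ⊤ θ → ∀ c v : ℂ, θ 1 + ∑ a : (ZMod p)ˣ, θ (xp x (a : ZMod p)) = p * c →
      (∀ g, 2 ∣ orderOf g → θ g = v) → c + v = 2 → ∃ m : ℕ, ⟪rho x, θ⟫[⊤] = m ∧ 1 ≤ m :=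
    fun θ hθ c v i1 i2 i3 => by
      obtain ⟨m, j1, j2⟩ := d.dot_N hK hθ.isChar i1
      rw [Finset.sum_congr rfl fun g hg => i2 g (h5 g (mem_elts.1 hg).1 (mem_elts.1 hg).2).symm.dvd,
        Finset.sum_const, h6, one_smul, i3] at j2
      exact ⟨m, j1, Nat.pos_of_ne_zero fun e => by simp [e] at j2⟩
  have h8 : ∀ F : (G → ℂ) → ℂ, ∑ θ ∈ I ∪ Finset.univ.image ξ, F θ =
      F (cf1 ⊤) + F χ + ∑ j, F (ξ j) := fun F => by
    rw [Finset.sum_union (Finset.disjoint_right.2 fun θ h => by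
      obtain ⟨j, -, rfl⟩ := Finset.mem_image.1 h; exact b.notI j),
      Finset.sum_image fun _ _ _ _ e => b.inj e, h.sum]
    simp
  have h9 : ∀ j, ξ j 1 = p + 2 := fun j => by
    rw [dg_eq (b.irrξ j).isChar, b.dgξ j 1, h0]; simp
  have h10 : χ 1 = p + 1 := by rw [dg_eq (b.irrI χ χI).isChar, χd]; simp
  have h11 : ∀ θ ∈ I, θ = cf1 ⊤ ∨ θ = χ := fun θ hθ => by
    by_contra! e
    have := h.sum ℕ fun φ => if θ = φ then 1 else 0
    simp [hθ, e.1, e.2] at this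
  have h12 := eq_of_le (rho_char (x := x)) (S := I ∪ Finset.univ.image ξ) (c := 1)
    (fun θ hθ => (Finset.mem_union.1 hθ).elim (b.irrI θ) fun h => by
      obtain ⟨j, -, rfl⟩ := Finset.mem_image.1 h; exact b.irrξ j)
    (fun θ hθ => by
      rcases Finset.mem_union.1 hθ with h | h
      · rcases h11 θ h with rfl | rfl
        · exact h7 _ (isIrr_cf1 _) 1 1 (by rw [b.sumI h, b.δ_one, cf1_one]; simp)
            (fun g _ => cf1E (mem_top _)) (by norm_num)
        · exact h7 _ (b.irrI θ χI) 2 0 (by rw [b.sumI χI, χs, h10]; simp; ring)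
            (fun g hg => (h4 g hg).2.1) (by norm_num)
      · obtain ⟨j, -, rfl⟩ := Finset.mem_image.1 h
        exact h7 _ (b.irrξ j) 1 1 (by rw [b.sumξ, h9, he, e0]; simp)
          (fun g hg => (h4 g hg).2.2 j) (by norm_num))
    (by
      rw [h8, rho_one, hn, cf1_one, h10, Finset.sum_congr rfl fun j _ => h9 j]
      have i1 : (2 : ℂ) * (1 + r * p) = (p + 1) * (p + 2) := by exact_mod_cast h1
      have i2 : (2 : ℂ) * Nat.card d.J + 1 = p := by exact_mod_cast (by omega : _ + 1 = p)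
      simp only [Finset.sum_const, Finset.card_univ, ← Nat.card_eq_fintype_card, nsmul_eq_mul]
      push_cast
      linear_combination i1 / 2 - (p + 2) / 2 * i2)
  refine s.of_sing (q := p) ⟨p * (1 + r * p), by rw [hG, ← h1]; ring⟩ (fun g hg => ?_)
    (by rw [hG]; ring)
  obtain ⟨a, ha⟩ := exists_conj_N (x := x) (g := g) (by
    rw [h12, Finset.sum_apply, h8]
    simp only [Nat.cast_one, one_smul, cf1E (mem_top g), (h4 g hg).2.1, (h4 g hg).2.2,
      Finset.sum_const, nsmul_eq_mul, mul_one, add_zero]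
    exact_mod_cast (by omega : 1 + _ ≠ 0))
  obtain ⟨w, i1, i2, i3⟩ := d.conj_H hK ha fun e => by
    have := orderOf_dvd_natCard _ e
    rw [orderOf_conj, d.cardP] at this
    have := hg.trans this
    omega
  obtain ⟨u, rfl⟩ := isConj_iff.1 i3
  have := h5 _ i1 i2
  rw [orderOf_conj, orderOf_conj] at this
  rw [← sq, ← this, pow_orderOf_eq_one]

theorem Be (e0 : δ0 = -1) (h0 : Nat.card d.J * dg (ξ 1) = c * (p + a)) (h1 : S1 = ∅)
    (hT : Nat.card d.J * ((S2.card : ℤ) * (a - 1) - S3.card - S4.card * (c + 1)) = c) :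
    (3 < p ∧ 2 * (1 + r * p) = (p + 1) * (p + 2) ∧
      ∃ m, 2 ≤ m ∧ p + 1 = 2 ^ m ∧ Nonempty (G ≃* PSL(2, GaloisField 2 m))) ∨
    (p = 13 ∧ r = 11 ∧ Nat.card d.E = 3 ∧ dg (ξ 1) = 16 ∧
      ∃ χ θ, Cen I δ 144 27 12 64 ∅ {χ} {θ} ∅) := by
  have hK := b.K_bot s hn hr hB
  have h2 := b.cen_card h
  have h3 := et (d := d) hB
  have t0 : 0 < Nat.card d.J := Nat.card_pos
  have ha := hB.ha
  have hac := hB.hab
  simp only [h1, Finset.card_empty, zero_add] at h2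
  obtain ⟨u, hu⟩ : Nat.card d.J ∣ c := by
    have := Nat.dvd_gcd (Dvd.intro_left _ (h3.trans (mul_comm _ _))) (Dvd.intro _ h0)
    rwa [Nat.gcd_mul_left, hB.copY, mul_one] at this
  have he : Nat.card d.E = a * u :=
    Nat.eq_of_mul_eq_mul_right t0 (by rw [h3, hu]; ring)
  have h4 : dg (ξ 1) = u * (p + a) := Nat.eq_of_mul_eq_mul_left t0 (by rw [h0, hu]; ring)
  have h5 : 1 + S2.card * a = u * (a + 1) + S4.card * c := by
    zify at h2 h3 hu t0 ⊢
    apply mul_left_cancel₀ t0.ne'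
    linear_combination hT + h3 - Nat.card d.J * h2 + (a + 1) * hu
  have h7 : ∀ l : ℕ, l.Prime → l ∣ u → ¬ l ∣ a := fun l hl i1 i2 => hl.not_dvd_one
    ((Nat.dvd_add_left (i2.mul_left S2.card)).1
      (h5 ▸ dvd_add (i1.mul_right _) ((hu ▸ i1.mul_left _ : l ∣ c).mul_left _)))
  have yo := (d.orderOf_y hK).trans he
  have hG := d.cardG' hK
  rw [hn, hB.hn, he] at hG
  have i1 : ∀ θ ∈ S2, ∀ l : ℕ, l.Prime → l ∣ a → ∀ g, l ∣ orderOf g → θ g = 0 :=
    fun θ hθ l hl hl' g hg => dz (b.irrI θ (h.h2 θ hθ).1) (m := p * u * (p + a))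
      (by rw [(h.h2 θ hθ).2.2, hG]; ring) hl (fun e => by
        rcases hl.dvd_mul.1 e with e | e
        · exact (hl.dvd_mul.1 e).elim (hB.not_dvd hl (hl'.mul_right _)) fun e => h7 l hl e hl'
        · exact hl.ne_one (Nat.eq_one_of_dvd_coprimes hB.copY hl' e)) hg
  obtain rfl : u = 1 := by
    by_contra u1
    obtain ⟨l, hl, hl'⟩ := Nat.exists_prime_and_dvd (by omega : a ≠ 1)
    obtain ⟨q, hq, hq'⟩ := Nat.exists_prime_and_dvd u1
    have qc : q ∣ c := hu ▸ hq'.mul_left _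
    have i2 : ¬ q ∣ p * a * X := fun e => by
      rcases hq.dvd_mul.1 e with e | e
      · exact (hq.dvd_mul.1 e).elim (hB.not_dvd hq (qc.mul_left _)) (h7 q hq hq')
      · exact hq.ne_one (Nat.eq_one_of_dvd_coprimes hB.copX qc e)
    have y1 : y ≠ 1 := fun e => hq.not_dvd_one (by
      rw [← orderOf_one (G := G), ← e, yo]; exact hq'.mul_left _)
    have := b.cen_reg h 1 (g := y) fun e => d.cop (e.trans (orderOf_dvd_natCard _ d.yH))
    rw [h1, Finset.sum_eq_zero (s := S2) fun θ hθ => i1 θ hθ l hl hl' y (yo ▸ hl'.mul_right _),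
      Finset.sum_eq_zero (s := S3) fun θ hθ => b.γ_zero (h.h3 θ hθ).1 (h.h3 θ hθ).2.1
        (h.h3 θ hθ).2.2 (d.norm d.yH) (d.not_C hK d.yH y1),
      Finset.sum_eq_zero (s := S4) fun θ hθ => by
        obtain ⟨v, -, hv⟩ := b.B4 hn hB h (Finset.card_ne_zero.2 ⟨θ, hθ⟩)
        exact dz (b.irrI θ (h.h4 θ hθ).1) (m := p * v * X)
          (by rw [(h.h4 θ hθ).2.2, hG]; nth_rw 1 [← hv]; rw [hu]; ring) hq
          (fun e => i2 (e.trans (by rw [← hv]; gcongr; exact dvd_mul_right _ _)))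
          (yo ▸ hq'.mul_left _),
      dz (b.irrξ 1) (m := p * a * X) (by rw [h4, hG]; ring) hq i2 (yo ▸ hq'.mul_left _)] at this
    simp at this
  rw [mul_one] at hu he yo
  rw [one_mul] at h4 h5
  have hp' := hB.hp
  have hX := hB.hX
  have h6 : S4.card = 0 := by
    by_contra e
    obtain ⟨v, -, hv⟩ := b.B4 hn hB h e
    obtain rfl : a = c := hac.antisymm (hu ▸ Nat.le_of_dvd (by omega) (Dvd.intro_left _ hv))
    have i2 : S3.card = 0 := by_contra fun e => by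
      have := hB.one_of_dvd hu.symm.dvd hu.symm.dvd (b.B3 s hn h e).2
      omega
    have i3 : S2.card = S4.card + 1 :=
      Nat.eq_of_mul_eq_mul_right (by omega : 0 < a) (by rw [add_mul]; omega)
    obtain ⟨θ, hθ⟩ := Finset.card_pos.1 (by omega : 0 < S2.card)
    have i4 : 2 ∣ a := by omega
    rcases odd_of_reg (b.irrI θ (h.h2 θ hθ).1).isChar s.lin_eq yo (t := X) (by
      rw [dg_eq (b.irrI θ (h.h2 θ hθ).1).isChar, (h.h2 θ hθ).2.2]; push_cast; ring) fun j hj => by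
        obtain ⟨l, hl, hl'⟩ := Nat.exists_prime_and_dvd (n := orderOf (y ^ j)) fun e =>
          hj (yo ▸ orderOf_dvd_iff_pow_eq_one.2 (orderOf_eq_one_iff.1 e))
        exact i1 θ hθ l hl (yo ▸ hl'.trans (orderOf_pow_dvd j)) _ hl' with ⟨k, hk⟩ | ⟨k, hk⟩
    · omega
    · have := i4.mul_right a
      omega
  have h8 : S2.card = 1 :=
    Nat.eq_of_mul_eq_mul_right (by omega : 0 < a) (by rw [h6] at h5; omega)
  obtain ⟨χ, rfl⟩ := Finset.card_eq_one.1 h8
  obtain rfl := Finset.card_eq_zero.1 h6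
  subst h1
  rcases ha.eq_or_lt with rfl | a3
  · obtain rfl : S3 = ∅ := Finset.card_eq_zero.1 (by omega)
    have i2 : 2 * X = p + 1 := by omega
    have i3 : 2 * (1 + r * p) = (p + 1) * (p + 2) := by rw [hB.hn, ← mul_assoc, i2]
    exact .inl ⟨by omega, i3, b.F1 s hn hK he e0 h4 i3 (i2 ▸ h)⟩
  obtain ⟨i2, i3⟩ := b.B3 s hn h (by omega)
  have i4 : c ∣ a + 1 := by
    rw [← hu, hB.hn, ← hp'] at i3
    exact (Nat.dvd_add_right (dvd_mul_left c a)).1
      (by rw [← add_assoc, add_right_comm]; exact hB.copX.dvd_of_dvd_mul_left i3)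
  obtain rfl : c = a + 1 := by
    have := Nat.le_of_dvd (by omega) i4
    by_contra e
    obtain rfl : a = c := by omega
    have := Nat.le_of_dvd one_pos ((Nat.dvd_add_right dvd_rfl).1 i4)
    omega
  have i5 : p = a * a + a + 1 := by rw [← hp']; ring
  obtain rfl : X = a ^ 2 := by rw [sq]; omega
  have i6 : p + a = (a + 1) ^ 2 := by rw [i5]; ring
  obtain rfl := b.F3 hK a3 (by obtain ⟨k, hk⟩ := hu ▸ i2; exact ⟨k - 1, by omega⟩) i5 he hu.symm e0
    (h4.trans i6) (by rw [hn, hB.hn, i6]) ((pow_succ' a 2).symm ▸ h)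
  have i7 := hB.hn
  obtain rfl : p = 13 := i5
  obtain rfl : r = 11 := by omega
  obtain ⟨θ, rfl⟩ := Finset.card_eq_one.1 (by omega : S3.card = 1)
  exact .inr ⟨rfl, rfl, he, h4, χ, θ, h⟩

omit hB h in
theorem main : K = ⊥ ∧ ((r = 1 ∧ Nat.card d.J = 2 ∧
      (Odd (Nat.card d.E) ∨ ∃ w, w ∉ H ∧ w * w = 1 ∧ w * y * w = y⁻¹)) ∨
    (2 * (1 + r * p) = (p - 1) * (p - 2) ∧
      ∃ m, 2 ≤ m ∧ p = 2 ^ m + 1 ∧ Nonempty (G ≃* PSL(2, GaloisField 2 m))) ∨
    (3 < p ∧ 2 * (1 + r * p) = (p + 1) * (p + 2) ∧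
      ∃ m, 2 ≤ m ∧ p + 1 = 2 ^ m ∧ Nonempty (G ≃* PSL(2, GaloisField 2 m))) ∨
    (p = 13 ∧ r = 11 ∧ Nat.card d.E = 3 ∧ δ0 = -1 ∧ dg (ξ 1) = 16 ∧
      ∃ χ θ, Cen I δ 144 27 12 64 ∅ {χ} {θ} ∅)) := by
  by_cases hB : ∃ a c X, CaseB p (1 + r * p) a c X
  · obtain ⟨a, c, X, hB⟩ := hB
    have hK := b.K_bot s hn hr hB
    obtain ⟨S1, S2, S3, S4, h, hT⟩ := b.cenB s hn hr hB
    replace hT := hT _ rfl
    obtain ⟨rfl, h1⟩ := b.Ba s hn hr hB h (hT.imp (·.imp_right And.left) (·.imp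
      (·.imp_right And.left) (·.imp (·.imp_right And.left) (·.imp_right And.left))))
    simp only [Finset.card_empty, Nat.cast_zero, zero_mul, zero_add] at hT
    refine ⟨hK, ?_⟩
    rcases hT with ⟨e0, h0, hT⟩ | ⟨e0, h0, hT⟩ | ⟨e0, h0, hT⟩ | ⟨e0, h0, hT⟩
    · obtain ⟨rfl, rfl⟩ := b.Bc s hn hr hB h e0 h0 rfl (fun e => h1 e (by rwa [e, one_mul] at h0)) hT
      exact (b.caseA s hn hK e0 h0 h).imp (·.imp_right (·.imp_right .inr)) .inl
    · exact (b.Bd s hn hr hB h h0 rfl hT).elim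
    · exact (b.Bb s hn hr hB h e0 h0 rfl hT).elim
    · exact .inr (.inr ((b.Be s hn hr hB h e0 h0 rfl hT).imp_right
        fun ⟨i1, i2, i3, i4⟩ => ⟨i1, i2, i3, e0, i4⟩))
  rcases (b.tri s hn hr).resolve_left hB with ⟨e0, h0, -, hK, -⟩ | ⟨-, -, i1, i2, i3, hK⟩
  · obtain ⟨S1, S2, S3, S4, h⟩ := exists_cen (δ := δ) (f1 := 1 + r * p) (f2 := 0) (f3 := p - 1)
      (f4 := 0) b.one fun θ h h1 => (b.sign θ h).imp
        (fun e => ⟨e, .inl ((b.posI s hn hr h h1 e).resolve_right fun ⟨a, c, X, h, _⟩ =>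
          hB ⟨a, c, X, h⟩)⟩)
        fun e => ⟨e, .inl ((b.negI s hn hr h e).resolve_right fun ⟨a, c, X, h, _⟩ =>
          hB ⟨a, c, X, h⟩)⟩
    obtain rfl : S2 = ∅ := Finset.eq_empty_of_forall_notMem fun θ hθ =>
      (dg_pos (b.irrI θ (h.h2 θ hθ).1)).ne' (h.h2 θ hθ).2.2
    obtain rfl : S4 = ∅ := Finset.eq_empty_of_forall_notMem fun θ hθ =>
      (dg_pos (b.irrI θ (h.h4 θ hθ).1)).ne' (h.h4 θ hθ).2.2
    exact ⟨hK, (b.caseA s hn hK e0 (h0 1) h).imp (·.imp_right (·.imp_right .inr)) .inl⟩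
  · exact ⟨hK, .inl ⟨i1, i2, .inl i3⟩⟩

end Dat.Brauer
end Cfsg.Agent.BR
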