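import Cfsg.Agent.Lib.BR.CaseB

/-!
# The group of order `5616`: characters
-/

set_option autoImplicit false

namespace Cfsg.Agent.BR

open Subgroup Cfsg.Agent.OO MulAction
open scoped ComplexConjugate Pointwise

universe u

variable {G : Type u} [Group G] [Finite G] {x y : G} {K H : Subgroup G}

theorem pSm_char {p k : ℕ} [hp : Fact p.Prime] {χ : G → ℂ} (h : IsChar ⊤ χ) {g : G}
    (hg : g ^ p ^ k = 1) : Blk.PSm p (χ g - χ 1) := by
  have key : ∀ (k : ℕ) (a : ℂ), a ^ p ^ k = 1 → Blk.PSm p (a - 1) := fun k => by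
    induction k with
    | zero => intro a ha; rw [pow_zero, pow_one] at ha; simpa [ha] using Blk.pSm_zero
    | succ k ih =>
      intro a ha
      have h1 := ih (a ^ p) (by rwa [← pow_mul, ← pow_succ'])
      have hi : Blk.PInt p a := Blk.pInt_of_pow_eq_one (pow_ne_zero _ hp.out.ne_zero) ha
      obtain ⟨r, hr⟩ := exists_add_pow_prime_eq (R := Blk.valRing p) hp.out
        ⟨a - 1, (Blk.valRing p).mem_of_valuation_le_one _ (hi.sub Blk.pInt_one)⟩ 1
      have h2 := congrArg Subtype.val hr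
      push_cast at h2
      rw [sub_add_cancel, one_pow, mul_one] at h2
      refine Blk.PSm.of_pow (n := p) ?_
      rw [show (a - 1) ^ p = (a ^ p - 1) - p * ((a - 1) * r) by linear_combination -h2]
      exact h1.sub (Blk.pSm_self.mul_pInt ((hi.sub Blk.pInt_one).mul
        ((Blk.valRing p).valuation_le_one r)))
  obtain ⟨s, h1, h2, h3⟩ := h.exists_roots (mem_top g)
  have h4 := h3 1
  simp only [zpow_one, Multiset.map_id'] at h4
  rw [h4, ← h1]
  replace h2 : ∀ ε ∈ s, Blk.PSm p (ε - 1) := fun ε hε => key k ε (by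
    obtain ⟨m, hm⟩ := orderOf_dvd_of_pow_eq_one hg
    rw [hm, pow_mul, h2 ε hε, one_pow])
  clear h1 h3 h4
  induction s using Multiset.induction_on with
  | empty => simpa using Blk.pSm_zero
  | cons a s ih =>
    have := (h2 a (Multiset.mem_cons_self _ _)).add
      (ih fun ε hε => h2 ε (Multiset.mem_cons_of_mem hε))
    rw [Multiset.sum_cons, Multiset.card_cons]
    convert this using 1
    push_cast; ring

/-- the `3`-elements not conjugate to `y` -/
def A3 (y : G) : Set G := {g | (g ≠ 1 ∧ g ^ 27 = 1) ∧ g ∉ classSupp {y} ⊤}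

/-- the facts used to identify the group of order `5616` -/
structure L3 (x y : G) : Prop where
  card : Nat.card G = 5616
  ox : orderOf x = 13
  sing : ∀ g : G, 13 ∣ orderOf g → orderOf g = 13
  oy : orderOf y = 3
  yN : y ∈ 𝐍(zpowers x)
  yC : y ∉ 𝐂[x]
  cy : ♯𝐂[y] ≤ 9
  cA : (A3 y).ncard = 104
  res : ∀ Q : Subgroup G, ♯Q = 27 →
    2 < ((Q : Set G) ∩ A3 y).ncard ∧ ((Q : Set G) ∩ A3 y).ncard < 26
  perm : ∀ M : Subgroup G, M.index = 13 →
    (fixedBy (G ⧸ M) y).ncard = 1 ∧ ∀ g ∈ A3 y, (fixedBy (G ⧸ M) g).ncard = 4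

theorem Dat.Brauer.l3 [hp : Fact (Nat.Prime 13)] {d : Dat 13 x y K H} {I : Finset (G → ℂ)}
    {δ : (G → ℂ) → ℤ} {ξ : d.J → G → ℂ} {δ0 : ℤ} (b : d.Brauer I δ ξ δ0) (hK : K = ⊥)
    (hn : (𝐍(zpowers x)).index = 1 + 11 * 13) (he : Nat.card d.E = 3) (e0 : δ0 = -1)
    (h0 : dg (ξ 1) = 16) {χ θ : G → ℂ} (c : Cen I δ 144 27 12 64 ∅ {χ} {θ} ∅) : L3 x y := by
  classical
  have hG : Nat.card G = 5616 := by rw [d.cardG' hK, he, hn]
  have ht : Nat.card d.J ≠ 1 := by have := d.e_mul_t; rw [he] at this; omega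
  obtain ⟨χI, -, χd⟩ := c.h2 χ (Finset.mem_singleton_self χ)
  obtain ⟨θI, θs, θd⟩ := c.h3 θ (Finset.mem_singleton_self θ)
  have hξ := b.irrξ 1
  have hθ := b.irrI θ θI
  have ξ1 : ξ 1 1 = 16 := by rw [dg_eq hξ.isChar, h0]; simp
  have θ1 : θ 1 = 12 := by rw [dg_eq hθ.isChar, θd]; simp
  set U := elts {g : G | g ≠ 1 ∧ g ^ 27 = 1} with hU
  have h1 : ∀ g ∈ U, ¬ 13 ∣ orderOf g := fun g hg e => by
    have := e.trans (orderOf_dvd_of_pow_eq_one (mem_elts.1 hg).2); omega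
  have hz : ∀ g ∈ U, ∃ z : ℤ, ξ 1 g = z := fun g hg => b.ξ_int hK ht (h1 g hg)
  choose! z hz using hz
  have h2 : ∀ g ∈ U, 3 ∣ z g - 16 := fun g hg => by
    have := Fact.mk Nat.prime_three
    have := pSm_char (p := 3) (k := 3) hξ.isChar (mem_elts.1 hg).2
    rw [hz g hg, ξ1] at this
    exact Blk.pSm_intCast.1 (by exact_mod_cast this)
  have hχ : ∀ g ∈ U, χ g = 0 := fun g hg => by
    obtain ⟨l, hl, hl'⟩ := Nat.exists_prime_and_dvd
      fun e => (mem_elts.1 hg).1 (orderOf_eq_one_iff.1 e)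
    obtain rfl := (Nat.prime_dvd_prime_iff_eq hl Nat.prime_three).1 (hl.dvd_of_dvd_pow (n := 3)
      (hl'.trans (orderOf_dvd_of_pow_eq_one (mem_elts.1 hg).2)))
    exact dz (b.irrI χ χI) (m := 208) (by rw [χd, hG]) hl (by norm_num) hl'
  have h3 : ∀ g ∈ U, θ g = 1 - z g := fun g hg => by
    have := b.cen_reg c 1 (h1 g hg)
    simp only [Finset.sum_empty, Finset.sum_singleton, hχ g hg, e0, hz g hg] at this
    push_cast at this
    linear_combination -this
  have h4 : ∀ F : G → ℂ, ∑ g ∈ elts {g : G | ¬ 13 ∣ orderOf g ∧ g ≠ 1}, ξ 1 g * F g =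
      ∑ g ∈ U, z g * F g := fun F => by
    rw [← Finset.sum_subset (s₁ := U) (s₂ := elts {g : G | ¬ 13 ∣ orderOf g ∧ g ≠ 1})
      (fun g hg => mem_elts.2 ⟨h1 g hg, (mem_elts.1 hg).1⟩) fun g hg hg' => ?_]
    · exact Finset.sum_congr rfl fun g hg => by rw [hz g hg]
    rw [dz hξ (m := 351) (by rw [h0, hG]) Nat.prime_two (by norm_num) (by_contra fun e => hg'
      (mem_elts.2 ⟨(mem_elts.1 hg).2, orderOf_dvd_iff_pow_eq_one.1 ?_⟩)), zero_mul]
    have i1 : orderOf g ∣ 2 ^ 4 * 13 * 27 := (orderOf_dvd_natCard g).trans hG.dvd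
    exact (((Nat.prime_two.coprime_iff_not_dvd.2 e).pow_left 4).mul_left
      (hp.out.coprime_iff_not_dvd.2 (mem_elts.1 hg).1)).symm.dvd_of_dvd_mul_left i1
  have s1 : ∑ g ∈ U, z g = 416 := by
    have := d.sum_split hK hξ.mem_CF
    rw [hξ.sum_eq_zero (b.ξ_ne 1), ξ1, b.sumξ, hn, he, e0,
      Finset.sum_congr rfl fun g _ => (mul_one (ξ 1 g)).symm, h4] at this
    exact_mod_cast (by simp at this ⊢; linear_combination -this : ∑ g ∈ U, (z g : ℂ) = 416)
  have s2 : ∑ g ∈ U, z g * (1 - z g) = -624 := by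
    have h5 := cfdot_irr_ne hξ hθ fun e => b.notI 1 (e ▸ θI)
    have := d.sum_split hK (hξ.isChar.mul hθ.isChar.star).mem_CF
    simp only [Pi.mul_apply, cfConjCE] at this
    rw [cfdotE, mul_eq_zero, this, ξ1, θ1, h4, Finset.sum_congr (s₁ := Finset.univ) rfl fun u _ => by
      rw [b.valI' θI u.ne_zero, θs], ← Finset.sum_mul, b.sumξ, hn, he, e0,
      Finset.sum_congr rfl fun g hg => by rw [h3 g hg]] at h5
    have h6 := h5.resolve_left (inv_ne_zero (cardC_ne_zero _))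
    exact_mod_cast (by simp [map_ofNat] at h6 ⊢; linear_combination h6 :
      ∑ g ∈ U, (z g : ℂ) * (1 - z g) = -624)
  have yo := (d.orderOf_y hK).trans he
  have y1 : y ≠ 1 := fun e => by rw [e, orderOf_one] at yo; omega
  have yU : y ∈ U := mem_elts.2 ⟨y1, orderOf_dvd_iff_pow_eq_one.1 (by rw [yo]; norm_num)⟩
  have θy : θ y = 0 := b.γ_zero θI θs θd (d.norm d.yH) (d.not_C hK d.yH y1)
  have zy : (z y : ℂ) = 1 := by linear_combination h3 y yU - θy
  have cy : ♯𝐂[y] ≤ 9 := by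
    obtain ⟨N, hN⟩ := b.class_mul' hK (h1 y yU)
    rw [c.sum, b.δ_one, dg_one, cf1E (mem_top _), hz y yU, zy, h0, e0, hG] at hN
    simp only [Finset.sum_empty, Finset.sum_singleton, hχ y yU, θy] at hN
    have i1 : ♯𝐂[y] ^ 2 * N = 5265 := by exact_mod_cast hN.trans (by norm_num : _ = (5265 : ℝ))
    have i2 : ♯𝐂[y] < 73 := lt_of_pow_lt_pow_left₀ 2 (by norm_num)
      ((Nat.le_of_dvd (by norm_num) (Dvd.intro _ i1)).trans_lt (by norm_num))
    exact (by decide : ∀ c < 73, c ^ 2 ∣ 5265 → c ≤ 9) _ i2 (Dvd.intro _ i1)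
  have h5 : ∀ g ∈ elts (classSupp {y} ⊤), g ∈ U ∧ z g = 1 := fun g hg => by
    obtain ⟨_, rfl, u, -, rfl⟩ := mem_classSupp.1 (mem_elts.1 hg)
    have i1 : u * _ * u⁻¹ ∈ U := mem_elts.2 ⟨fun e => y1 (conj_eq_one_iff.1 e), by
      rw [_root_.conj_pow, (mem_elts.1 yU).2]; simp⟩
    have i2 := hz _ i1
    rw [cfunJ hξ.mem_CF (mem_top u), hz _ yU, zy] at i2
    exact ⟨i1, by exact_mod_cast i2.symm⟩
  have h6 : ∀ F : ℤ → ℤ, ∑ g ∈ U, F (z g) = ∑ g ∈ elts (A3 y), F (z g) + (𝐂[y]).index * F 1 :=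
    fun F => by
      rw [← Finset.sum_sdiff fun g hg => (h5 g hg).1,
        Finset.sum_congr (s₁ := elts (classSupp {y} ⊤)) rfl fun g hg => by rw [(h5 g hg).2],
        Finset.sum_const, card_elts_set, (ti_single y).ncard_classSupp, Set.ncard_singleton,
        one_mul, relIndex_top_right, nsmul_eq_mul]
      congr 2; ext; simp [A3, hU]
  have hA : ∀ g ∈ A3 y, g ∈ U := fun g hg => mem_elts.2 hg.1
  have h7 : ∀ g ∈ elts (A3 y), 0 ≤ z g * (z g + 2) := fun g hg => by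
    have := h2 g (hA g (mem_elts.1 hg))
    rcases le_or_gt 0 (z g) with h | h
    · positivity
    · exact mul_nonneg_of_nonpos_of_nonpos h.le (by omega)
  have h8 : 624 ≤ (𝐂[y]).index := by
    have := (𝐂[y]).card_mul_index
    have := Nat.mul_le_mul_right (𝐂[y]).index cy
    omega
  have h9 := h6 fun a => a * (a + 2)
  rw [show ∑ g ∈ U, z g * (z g + 2) = 1872 by
    rw [Finset.sum_congr rfl fun g _ => (by ring : _ = 3 * z g - z g * (1 - z g)),
      Finset.sum_sub_distrib, ← Finset.mul_sum, s1, s2]; rfl] at h9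
  have h10 := Finset.sum_nonneg h7
  have h11 : ∀ g ∈ A3 y, z g = -2 := fun g hg => by
    have := h2 g (hA g hg)
    rcases mul_eq_zero.1 ((Finset.sum_eq_zero_iff_of_nonneg h7).1 (by omega) g (mem_elts.2 hg))
      with h | h <;> omega
  have h12 := h6 id
  simp only [id] at h12
  rw [s1, Finset.sum_congr rfl fun g hg => h11 g (mem_elts.1 hg), Finset.sum_const,
    card_elts_set, nsmul_eq_mul] at h12
  refine ⟨hG, d.ord, fun g => d.ord_sing hK, yo, d.norm d.yH, d.not_C hK d.yH y1, cy, by omega,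
    fun Q hQ => ?_, fun M hM => ?_⟩
  · obtain ⟨k, hk⟩ := Cnat_cfdot_char (hξ.isChar.cfRes le_top) (isChar_cf1 Q)
    rw [cfdot_cfRes_left, cfdot_cf1r, inv_mul_eq_iff_eq_mul₀ (cardC_ne_zero _),
      Finset.sum_congr rfl fun g hg => (by
        by_cases e : g = 1
        · rw [e, ξ1, if_pos rfl, if_neg fun h => h.1.1 rfl]; norm_num
        have i1 : g ∈ U := mem_elts.2 ⟨e, orderOf_dvd_iff_pow_eq_one.1
          (hQ ▸ orderOf_dvd_natCard _ (mem_elts.1 hg))⟩
        rw [if_neg e, hz g i1]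
        split_ifs with e'
        · rw [h11 g e']; norm_num
        · rw [(h5 g (mem_elts.2 (not_not.1 fun h => e' ⟨⟨e, (mem_elts.1 i1).2⟩, h⟩))).2]; norm_num :
        _ = 1 + (if g = 1 then 15 else 0) - if g ∈ A3 y then (3 : ℂ) else 0),
      Finset.sum_sub_distrib, Finset.sum_add_distrib, sum_elts_const, Finset.sum_ite_eq',
      if_pos (mem_elts.2 (one_mem Q)), ← Finset.sum_filter, Finset.sum_const,
      show Finset.filter _ _ = elts ((Q : Set G) ∩ A3 y) by ext; simp, card_elts_set, hQ] at hk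
    have : 42 = 27 * k + 3 * ((Q : Set G) ∩ A3 y).ncard := by
      exact_mod_cast (by simp at hk; linear_combination hk :
        (42 : ℂ) = 27 * k + 3 * ((Q : Set G) ∩ A3 y).ncard)
    omega
  have hπ : IsChar ⊤ fun g : G => ((fixedBy (G ⧸ M) g).ncard : ℂ) :=
    isChar_iff.2 ⟨fun g h => absurd (mem_top g) h, Char.isCharacter_perm (G := (⊤ : Subgroup G)) _⟩
  have π1 : (fixedBy (G ⧸ M) (1 : G)).ncard = 13 := by
    rw [fixedBy_one_eq_univ, Set.ncard_univ]; exact hM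
  have πx : fixedBy (G ⧸ M) (xp x (1 : ZMod 13)) = ∅ := Set.eq_empty_of_forall_notMem fun q hq => by
    obtain ⟨g, rfl⟩ := QuotientGroup.mk_surjective q
    have i1 : g⁻¹ * x * g⁻¹⁻¹ ∈ M := by
      simpa [xp_one, mul_assoc] using QuotientGroup.eq.1 (mem_fixedBy.1 hq).symm
    have i2 := orderOf_dvd_natCard _ i1
    have := M.card_mul_index
    rw [orderOf_conj, d.ord] at i2
    rw [hM] at this
    omega
  obtain ⟨ψ, hψ, e⟩ := (constt_charP hπ (isIrr_cf1 ⊤)).1 (by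
    rw [cfdot_cf1r, ← Nat.cast_sum]
    refine mul_ne_zero (inv_ne_zero (cardC_ne_zero _)) (Nat.cast_ne_zero.2 fun h => ?_)
    have := Finset.sum_eq_zero_iff.1 h 1 (by simp)
    omega)
  have e' : ∀ g, ((fixedBy (G ⧸ M) g).ncard : ℂ) = 1 + ψ g := fun g => by
    rw [congrFun e g, Pi.add_apply, cf1E (mem_top g)]
  have ψ1 : ψ 1 = 12 := by have := e' 1; rw [π1] at this; push_cast at this; linear_combination -this
  obtain rfl : ψ = θ := by
    refine eq_of_constt_of_one_eq hψ hθ (fun i1 => ?_) (ψ1.trans θ1.symm)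
    have i2 : ∀ φ, IsIrr ⊤ φ → 12 < dg φ → ⟪ψ, φ⟫[⊤] = 0 := fun φ hφ h => by_contra fun e => by
      have := char1_ge_constt hψ hφ e
      rw [ψ1, dg_eq hφ.isChar] at this
      norm_num at this; omega
    have i3 := e' (xp x (1 : ZMod 13))
    obtain ⟨k, hk⟩ := Cnat_cfdot_char hψ (isChar_cf1 ⊤)
    rw [πx, cfun_apply_sum_cfdot hψ.mem_CF, b.sum_Irr _ fun φ hφ i1 i2 => by
      rw [b.val0 hK hφ i1 i2 one_ne_zero, mul_zero], c.sum, hk, cf1E (mem_top _),
      Finset.sum_eq_zero (s := Finset.univ) fun j _ => by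
        rw [i2 _ (b.irrξ j) (by rw [b.dgξ j 1, h0]; norm_num), zero_mul]] at i3
    simp only [Finset.sum_empty, Finset.sum_singleton, i1, i2 χ (b.irrI χ χI) (by omega), zero_mul,
      add_zero, mul_one, Set.ncard_empty] at i3
    exact absurd i3 (by exact_mod_cast (by omega : 0 ≠ 1 + k))
  refine ⟨by exact_mod_cast (e' y).trans (by rw [θy]; simp : _ = (1 : ℂ)), fun g hg => ?_⟩
  exact_mod_cast (e' g).trans (by rw [h3 g (hA g hg), h11 g hg]; norm_num : _ = (4 : ℂ))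

end Cfsg.Agent.BR
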