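import Cfsg.Agent.Lib.Lin.SL2

/-!
# The projective plane of order `3`
-/

set_option autoImplicit false

namespace Cfsg.Agent.BR.Plane

open Matrix Subgroup
open scoped MatrixGroups

/-- the point `i` lies on the line `l` -/
def On (i l : ZMod 13) : Prop := (523 : ℕ).testBit ((i.val + 13 - l.val) % 13)

instance (i l : ZMod 13) : Decidable (On i l) := by unfold On; infer_instance

theorem on_iff : ∀ i l, On i l ↔ i - l ∈ ({0, 1, 3, 9} : Finset (ZMod 13)) := by decide +kernel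

/-- collinear points -/
def Col (i j k : ZMod 13) : Prop := ∃ l, On i l ∧ On j l ∧ On k l

instance (i j k : ZMod 13) : Decidable (Col i j k) := by unfold Col; infer_instance

/-- coordinates -/
def v (i : ZMod 13) : Fin 3 → ZMod 3 := (![![1, 0, 0], ![0, 1, 0], ![0, 0, 1], ![2, 1, 0],
  ![0, 2, 1], ![2, 1, 2], ![1, 1, 1], ![2, 2, 1], ![2, 0, 2], ![1, 1, 0], ![0, 1, 1], ![2, 1, 1],
  ![2, 0, 1]] : Fin 13 → Fin 3 → ZMod 3) i

/-- the determinant -/
def det3 (a b c : Fin 3 → ZMod 3) : ZMod 3 :=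
  a 0 * (b 1 * c 2 - b 2 * c 1) - a 1 * (b 0 * c 2 - b 2 * c 0) + a 2 * (b 0 * c 1 - b 1 * c 0)

theorem col_iff : ∀ i j k, Col i j k ↔ det3 (v i) (v j) (v k) = 0 := by decide +kernel

theorem card_off : ∀ a b, a ≠ b → Fintype.card {c // ¬ Col a b c} = 9 := by decide +kernel

theorem card_on : ∀ a b, a ≠ b → Fintype.card {c // Col a b c ∧ c ≠ a ∧ c ≠ b} = 2 := by
  decide +kernel

theorem col_self : ∀ a b, Col a b a := by decide +kernel

/-- the collineation group -/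
def A : Subgroup (Equiv.Perm (ZMod 13)) where
  carrier := {σ | ∀ i j k, Col (σ i) (σ j) (σ k) ↔ Col i j k}
  mul_mem' ha hb i j k := (ha _ _ _).trans (hb i j k)
  one_mem' _ _ _ := Iff.rfl
  inv_mem' {σ} h i j k := by simpa using (h (σ⁻¹ i) (σ⁻¹ j) (σ⁻¹ k)).symm

theorem eq_one {σ : Equiv.Perm (ZMod 13)} (h : σ ∈ A) (h0 : σ 0 = 0) (h1 : σ 1 = 1) (h2 : σ 2 = 2)
    (h3 : σ 3 = 3) (h8 : σ 8 = 8) : σ = 1 := by
  have key : ∀ {a b c d k}, σ a = a → σ b = b → σ c = c → σ d = d →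
      (∀ m, Col a b m ∧ Col c d m ↔ m = k) → σ k = k := fun {a b c d k} ha hb hc hd e =>
    (e _).1 ⟨by simpa only [ha, hb] using (h a b k).2 ((e k).2 rfl).1,
      by simpa only [hc, hd] using (h c d k).2 ((e k).2 rfl).2⟩
  have h10 : σ 10 = 10 := key h1 h2 h3 h8 (by decide +kernel)
  have h5 : σ 5 = 5 := key h1 h8 h2 h3 (by decide +kernel)
  have h9 : σ 9 = 9 := key h5 h10 h0 h1 (by decide +kernel)
  have h12 : σ 12 = 12 := key h5 h10 h0 h2 (by decide +kernel)
  have h4 : σ 4 = 4 := key h0 h5 h1 h2 (by decide +kernel)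
  have h7 : σ 7 = 7 := key h0 h5 h3 h8 (by decide +kernel)
  have h11 : σ 11 = 11 := key h0 h10 h2 h3 (by decide +kernel)
  have h6 : σ 6 = 6 := key h0 h10 h1 h8 (by decide +kernel)
  ext i
  fin_cases i
  exacts [h0, h1, h2, h3, h4, h5, h6, h7, h8, h9, h10, h11, h12]

theorem card_A : Nat.card A ≤ 5616 := by
  let T := Σ a : ZMod 13, Σ b : {b // b ≠ a}, Σ c : {c // ¬ Col a b c},
    {d // Col a b d ∧ d ≠ a ∧ d ≠ b} × {d // Col a c d ∧ d ≠ a ∧ d ≠ c}
  have h1 : Fintype.card T = 5616 := by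
    rw [Fintype.card_sigma, Finset.sum_congr rfl fun a _ => by
      rw [Fintype.card_sigma, Finset.sum_congr rfl fun b _ => by
        rw [Fintype.card_sigma, Finset.sum_congr rfl fun c _ => by
          rw [Fintype.card_prod, card_on _ _ b.2.symm, card_on a c fun e => c.2 (e ▸ col_self _ _)],
          Finset.sum_const, Finset.card_univ, card_off _ _ b.2.symm],
        Finset.sum_const, Finset.card_univ, Fintype.card_subtype_compl, Fintype.card_subtype_eq]]
    simp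
  let f : A → T := fun σ => ⟨σ.1 0, ⟨σ.1 1, σ.1.injective.ne (by decide)⟩,
    ⟨σ.1 2, (σ.2 0 1 2).not.2 (by decide +kernel)⟩,
    ⟨σ.1 3, (σ.2 0 1 3).2 (by decide +kernel), σ.1.injective.ne (by decide),
      σ.1.injective.ne (by decide)⟩,
    ⟨σ.1 8, (σ.2 0 2 8).2 (by decide +kernel), σ.1.injective.ne (by decide),
      σ.1.injective.ne (by decide)⟩⟩
  rw [← h1, ← Nat.card_eq_fintype_card]
  refine Nat.card_le_card_of_injective f (Function.Injective.of_comp (f := fun t =>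
    (t.1, t.2.1.1, t.2.2.1.1, t.2.2.2.1.1, t.2.2.2.2.1)) fun σ τ e => ?_)
  simp only [f, Function.comp, Prod.mk.injEq] at e
  obtain ⟨e0, e1, e2, e3, e8⟩ := e
  refine (inv_mul_eq_one.1 (Subtype.ext (eq_one (τ⁻¹ * σ).2 ?_ ?_ ?_ ?_ ?_))).symm <;> simp [*]

theorem exists_v : ∀ w : Fin 3 → ZMod 3, w ≠ 0 → ∃ i, ∃ c : ZMod 3, c ≠ 0 ∧ w = c • v i := by
  decide +kernel

theorem v_inj : ∀ i j, ∀ c d : ZMod 3, c ≠ 0 → c • v i = d • v j → i = j := by decide +kernel

theorem v_ne : ∀ i, v i ≠ 0 := by decide +kernel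

theorem exists_act (M : SL(3, ZMod 3)) (i : ZMod 13) :
    ∃ j, ∃ c : ZMod 3, c ≠ 0 ∧ M.1 *ᵥ v i = c • v j :=
  exists_v _ fun e => v_ne i (eq_zero_of_mulVec_eq_zero (by rw [M.2]; exact one_ne_zero) e)

/-- the action on the plane -/
noncomputable def φ : SL(3, ZMod 3) →* Equiv.Perm (ZMod 13) := MonoidHom.toHomPerm
  { toFun M i := (exists_act M i).choose
    map_one' := funext fun i => by
      obtain ⟨c, h1, h2⟩ := (exists_act 1 i).choose_spec
      exact v_inj _ i c 1 h1 (by simpa using h2.symm)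
    map_mul' M N := funext fun i => by
      obtain ⟨c, h1, h2⟩ := (exists_act (M * N) i).choose_spec
      obtain ⟨d, -, h3⟩ := (exists_act N i).choose_spec
      obtain ⟨e, -, h4⟩ := (exists_act M (exists_act N i).choose).choose_spec
      refine v_inj _ _ c (d * e) h1 ?_
      rw [← h2, Matrix.SpecialLinearGroup.coe_mul, ← mulVec_mulVec, h3, mulVec_smul, h4, smul_smul]
      rfl }

theorem φ_spec (M : SL(3, ZMod 3)) (i : ZMod 13) :
    ∃ c : ZMod 3, c ≠ 0 ∧ M.1 *ᵥ v i = c • v (φ M i) := (exists_act M i).choose_spec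

theorem φ_mem (M : SL(3, ZMod 3)) : φ M ∈ A := fun i j k => by
  obtain ⟨a, ha, h1⟩ := φ_spec M i
  obtain ⟨b, hb, h2⟩ := φ_spec M j
  obtain ⟨c, hc, h3⟩ := φ_spec M k
  have h4 : det3 (M.1 *ᵥ v i) (M.1 *ᵥ v j) (M.1 *ᵥ v k) = M.1.det * det3 (v i) (v j) (v k) := by
    simp only [det3, mulVec, dotProduct, Fin.sum_univ_three, det_fin_three]; ring
  rw [h1, h2, h3, M.2, one_mul] at h4
  rw [col_iff, col_iff, ← h4, show ∀ u w z, det3 (a • u) (b • w) (c • z) = a * b * c * det3 u w z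
    from fun u w z => by simp only [det3, Pi.smul_apply, smul_eq_mul]; ring]
  simp [ha, hb, hc]

theorem φ_inj : Function.Injective φ := (injective_iff_map_eq_one φ).2 fun M h => by
  obtain ⟨a, -, h0⟩ := φ_spec M 0
  obtain ⟨b, -, h1⟩ := φ_spec M 1
  obtain ⟨c, -, h2⟩ := φ_spec M 2
  obtain ⟨d, -, h3⟩ := φ_spec M 6
  have h4 := M.2
  rw [h, Equiv.Perm.one_apply] at h0 h1 h2 h3
  rw [show v 0 = ![1, 0, 0] from rfl] at h0
  rw [show v 1 = ![0, 1, 0] from rfl] at h1
  rw [show v 2 = ![0, 0, 1] from rfl] at h2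
  rw [show v 6 = ![1, 1, 1] from rfl] at h3
  simp only [funext_iff, Fin.forall_fin_succ, mulVec, dotProduct, Fin.sum_univ_three] at h0 h1 h2 h3
  simp at h0 h1 h2 h3
  simp only [det_fin_three, h0, h1, h2, add_zero, zero_add] at h3 h4
  have h5 : d = 1 := by
    rw [h3.1, h3.2.1, h3.2.2] at h4
    clear h3; revert d; decide
  ext i j
  fin_cases i <;> fin_cases j <;> simp [*]

theorem card_SL3 {F : Type*} [Field F] [Fintype F] (h : Fintype.card F = 3) :
    Nat.card SL(3, F) = 5616 := by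
  have h1 := Lin.card_SL_mul (F := F) (Fin 3)
  rw [card_GL_field, Nat.card_eq_fintype_card (α := F), h] at h1
  simp only [Fin.prod_univ_three, Fin.val_zero, Fin.val_one, Fin.val_two] at h1
  omega

theorem iso {G : Type*} [Group G] (hG : Nat.card G = 5616) (ψ : G →* Equiv.Perm (ZMod 13))
    (hψ : Function.Injective ψ) (h : ∀ g, ψ g ∈ A) : Nonempty (G ≃* PSL(3, ZMod 3)) := by
  have h1 : ψ.range = A := eq_of_le_of_card_ge (by rintro _ ⟨g, rfl⟩; exact h g)
    (card_A.trans_eq (hG ▸ Nat.card_congr (MonoidHom.ofInjective hψ).toEquiv))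
  have h2 : φ.range = A := eq_of_le_of_card_ge (by rintro _ ⟨g, rfl⟩; exact φ_mem g)
    (card_A.trans_eq (card_SL3 (ZMod.card 3) ▸ Nat.card_congr (MonoidHom.ofInjective φ_inj).toEquiv))
  have h3 : center SL(3, ZMod 3) = ⊥ := eq_bot_iff.2 fun M hM => by
    obtain ⟨r, i1, i2⟩ := Matrix.SpecialLinearGroup.mem_center_iff.1 hM
    obtain rfl : r = 1 := by clear i2; revert r; simp only [Fintype.card_fin]; decide
    exact Subtype.ext (i2.symm.trans (map_one _))
  exact ⟨(MonoidHom.ofInjective hψ).trans ((MulEquiv.subgroupCongr (h1.trans h2.symm)).trans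
    ((MonoidHom.ofInjective φ_inj).symm.trans (QuotientGroup.quotientBot.symm.trans
      (QuotientGroup.quotientMulEquivOfEq h3.symm))))⟩

end Cfsg.Agent.BR.Plane
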